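import Cfsg.Agent.H409.FprCycSm

/-!
# Cyclic Sylow subgroups not in parabolics: symplectic, unitary and orthogonal groups

The order `e` of `|F|` modulo the odd prime `p` enters only through
`he : ∀ k, p ∣ |F| ^ k - 1 → e ∣ k`.
-/

set_option autoImplicit false

namespace Cfsg.Agent.H409.Cyc

open Module Subgroup

variable {F : Type*} [Field F] [Fintype F] {p : ℕ} [hp : Fact p.Prime]

/-- `PSp_{2m}(q)`, `e = 2 m`. -/
theorem cyc_psp (hodd : p ≠ 2) (hch : (p : F) ≠ 0) {m : ℕ} (hm : 2 ≤ m) (hm2 : m = 2 → 3 ≤ Fintype.card F)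
    (he : ∀ k, p ∣ Fintype.card F ^ k - 1 → 2 * m ∣ k) (hpS : p ∣ Nat.card (PSp m F)) :
    FprRow (p + 1) 1 p (PSp m F) := by
  have hq2 : 2 ≤ Fintype.card F := two_le_q
  rcases Nat.lt_or_ge 4 m with h5 | h5
  · exact row_sp hodd hch he hm hpS (Or.inr (Or.inr h5))
  rcases Nat.lt_or_ge 3 (Fintype.card F) with h4 | h4
  · exact row_sp hodd hch he hm hpS (Or.inl h4)
  rcases Nat.lt_or_ge 2 (Fintype.card F) with h3 | h3
  · have hF : Fintype.card F = 3 := by omega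
    rcases Nat.lt_or_ge 2 m with h6 | h6
    · exact row_sp hodd hch he hm hpS (Or.inr (Or.inl ⟨h6, h3⟩))
    · have hm' : m = 2 := by omega
      subst hm'
      exact row_psp_small hodd hF hch he hpS
  · have hF : Fintype.card F = 2 := by omega
    have h6 : m = 3 ∨ m = 4 := by
      rcases Nat.lt_or_ge 2 m with h | h
      · omega
      · have := hm2 (by omega)
        omega
    rcases h6 with rfl | rfl
    · exact (no_sp_six hodd hF hch he hpS).elim
    · exact row_sp_small hodd hF hch he hpS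

/-- `PSU_n(q)`, `n ≥ 5` odd, `e = n` (the order of `q ^ 2`). -/
theorem cyc_psu_odd (hodd : p ≠ 2) (hch : (p : F) ≠ 0) {n q : ℕ} (hF : Fintype.card F = q ^ 2) (hn : 5 ≤ n)
    (hno : Odd n) (he : ∀ k, p ∣ Fintype.card F ^ k - 1 → n ∣ k) (hpS : p ∣ Nat.card (PSU n F q)) :
    FprRow (p + 1) 1 p (PSU n F q) := by
  have hq2 := two_le_of_card hF
  rcases Nat.lt_or_ge n 7 with h7 | h7
  · have hn5 : n = 5 := by
      obtain ⟨k, hk⟩ := hno
      omega
    subst hn5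
    rcases Nat.lt_or_ge 2 q with h3 | h3
    · exact row_su_odd hodd hF hch he hn hno (Or.inl h3) hpS
    · have hq : q = 2 := by omega
      subst hq
      exact row_su_small hodd hF hch he hpS
  · exact row_su_odd hodd hF hch he hn hno (Or.inr h7) hpS

/-- `PSU_n(q)`, `n ≥ 4` even, `e = n - 1` (the order of `q ^ 2`). -/
theorem cyc_psu_even (hodd : p ≠ 2) (hch : (p : F) ≠ 0) {n q : ℕ} (hF : Fintype.card F = q ^ 2) (hn : 4 ≤ n)
    (hno : Even n) (he : ∀ k, p ∣ Fintype.card F ^ k - 1 → n - 1 ∣ k) (hpS : p ∣ Nat.card (PSU n F q)) :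
    FprRow (p + 1) 1 p (PSU n F q) := by
  have hq2 := two_le_of_card hF
  rcases Nat.lt_or_ge n 6 with h6 | h6
  · have hn4 : n = 4 := by
      obtain ⟨k, hk⟩ := hno
      omega
    subst hn4
    rcases Nat.lt_or_ge 2 q with h3 | h3
    · exact row_su_even hodd hF hch he hn hno (Or.inl h3) hpS
    · have hq : q = 2 := by omega
      subst hq
      exact (no_su_four hodd hF hch he hpS).elim
  · exact row_su_even hodd hF hch he hn hno (Or.inr h6) hpS

/-- `PΩ_{2m+1}(q)`, `q` odd, `e = 2 m`. -/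
theorem cyc_odd (hodd : p ≠ 2) (hch : (p : F) ≠ 0) {m : ℕ} (hm : 3 ≤ m) (hFo : Odd (Fintype.card F))
    (he : ∀ k, p ∣ Fintype.card F ^ k - 1 → 2 * m ∣ k)
    (hpS : p ∣ Nat.card (Cfsg.POmega F (Cfsg.quadFormOdd m F))) :
    FprRow (p + 1) 1 p (Cfsg.POmega F (Cfsg.quadFormOdd m F)) := row_odd hodd hm hFo hch he hpS

/-- `PΩ⁻_{2m}(q)`, `e = 2 m`. -/
theorem cyc_minus (hodd : p ≠ 2) (hch : (p : F) ≠ 0) {m : ℕ} (hm : 4 ≤ m) {a b : F}
    (hab : ∀ z₁ z₂ : F, z₁ ^ 2 + a * z₁ * z₂ + b * z₂ ^ 2 = 0 → z₁ = 0 ∧ z₂ = 0)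
    (he : ∀ k, p ∣ Fintype.card F ^ k - 1 → 2 * m ∣ k)
    (hpS : p ∣ Nat.card (Cfsg.POmega F (Cfsg.quadFormMinus (m - 1) F a b))) :
    FprRow (p + 1) 1 p (Cfsg.POmega F (Cfsg.quadFormMinus (m - 1) F a b)) := by
  have hq2 : 2 ≤ Fintype.card F := two_le_q
  rcases Nat.lt_or_ge 4 m with h5 | h5
  · exact row_minus hodd hm hab hch he hpS (Or.inr h5)
  rcases Nat.lt_or_ge 2 (Fintype.card F) with h3 | h3
  · exact row_minus hodd hm hab hch he hpS (Or.inl h3)
  · have hF : Fintype.card F = 2 := by omega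
    have hm4 : m = 4 := by omega
    subst hm4
    exact row_minus_small hodd hF hab hch he hpS

/-- `PΩ⁺_{2m}(q)`, `e = 2 m - 2`. -/
theorem cyc_plus (hodd : p ≠ 2) (hch : (p : F) ≠ 0) {m : ℕ} (hm : 4 ≤ m)
    (he : ∀ k, p ∣ Fintype.card F ^ k - 1 → 2 * m - 2 ∣ k)
    (hpS : p ∣ Nat.card (Cfsg.POmega F (Cfsg.quadFormPlus m F))) :
    FprRow (p + 1) 1 p (Cfsg.POmega F (Cfsg.quadFormPlus m F)) := by
  have hq2 : 2 ≤ Fintype.card F := two_le_q
  rcases Nat.lt_or_ge 3 (Fintype.card F) with h4 | h4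
  · exact row_plus hodd hm hch he hpS (Or.inl h4)
  rcases Nat.lt_or_ge 2 (Fintype.card F) with h3 | h3
  · exact row_plus_three hodd hm (by omega) hch he hpS
  · have hF : Fintype.card F = 2 := by omega
    rcases Nat.lt_or_ge 4 m with h5 | h5
    · exact row_plus hodd hm hch he hpS (Or.inr ⟨hF, h5⟩)
    · have hm4 : m = 4 := by omega
      subst hm4
      exact (no_plus_eight hodd hF hch he hpS).elim

end Cfsg.Agent.H409.Cyc
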