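import Cfsg.Agent.H409.FprCycTI
import Cfsg.Agent.S0242
import Cfsg.Agent.S2140

/-!
# `PSL_3(q)`, `p ∣ q ^ 2 + q + 1`
-/

set_option autoImplicit false
set_option linter.unusedSectionVars false

namespace Cfsg.Agent.H409.Cyc

open Module Subgroup MulAction Matrix
open Cfsg.Agent.H27.Psl (Irr)

section field

open Polynomial

variable {F V : Type*} [Field F] [AddCommGroup V] [Module F V] [FiniteDimensional F V] [Nontrivial V]
  {A : V →ₗ[F] V}

/-- operators commuting with an irreducible one are polynomials in it -/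
theorem exists_rho (hA : Irr A) {B : V →ₗ[F] V} (hB : ∀ w, B (A w) = A (B w)) :
    ∃ e : AdjoinRoot (minpoly F A), Cfsg.Agent.H27.Psl.rho A (minpoly.aeval F A) e = B := by
  obtain ⟨v, hv⟩ := exists_ne (0 : V)
  obtain ⟨e, he⟩ := (hA.phi_bijective hv).2 (B v)
  refine ⟨e, ?_⟩
  obtain ⟨g, rfl⟩ := AdjoinRoot.mk_surjective e
  refine eq_of_comm hA ?_ hB hv he
  intro w
  rw [Cfsg.Agent.H27.Psl.rho_mk]
  exact Cfsg.Agent.H27.Psl.aeval_comm A g w

theorem comm_of_comm (hA : Irr A) {B C : V →ₗ[F] V} (hB : ∀ w, B (A w) = A (B w))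
    (hC : ∀ w, C (A w) = A (C w)) : B * C = C * B := by
  obtain ⟨e, rfl⟩ := exists_rho hA hB
  obtain ⟨e', rfl⟩ := exists_rho hA hC
  rw [← map_mul, ← map_mul, mul_comm]

theorem rho_injective (hA : Irr A) : Function.Injective (Cfsg.Agent.H27.Psl.rho A (minpoly.aeval F A)) := by
  have : Fact (Irreducible (minpoly F A)) := ⟨hA.irreducible⟩
  obtain ⟨v, hv⟩ := exists_ne (0 : V)
  intro a b hab
  exact (hA.phi_bijective hv).1 (congrArg (fun T : V →ₗ[F] V => T v) hab)

theorem finrank_adjoin (hA : Irr A) : finrank F (AdjoinRoot (minpoly F A)) = finrank F V := by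
  obtain ⟨v, hv⟩ := exists_ne (0 : V)
  exact (LinearEquiv.ofBijective _ (hA.phi_bijective hv)).finrank_eq

/-- in prime dimension, a non-scalar operator commuting with `A` generates the field `F[A]` -/
theorem nonscalar (hA : Irr A) (h3 : (finrank F V).Prime) {B : V →ₗ[F] V} (hB : ∀ w, B (A w) = A (B w))
    (hns : ¬ ∃ c : F, B = c • 1) :
    (minpoly F B).natDegree = finrank F V ∧ ∃ g : F[X], aeval B g = A := by
  have hirr : Fact (Irreducible (minpoly F A)) := ⟨hA.irreducible⟩
  have hfr := finrank_adjoin hA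
  have hfd : FiniteDimensional F (AdjoinRoot (minpoly F A)) := by
    apply FiniteDimensional.of_finrank_pos
    rw [hfr]; exact h3.pos
  obtain ⟨τ, hτ⟩ := exists_rho hA hB
  have hroot : Cfsg.Agent.H27.Psl.rho A (minpoly.aeval F A) (AdjoinRoot.root _) = A := by
    have := Cfsg.Agent.H27.Psl.rho_mk A (minpoly.aeval F A) X
    rwa [aeval_X, AdjoinRoot.mk_X] at this
  have hint : IsIntegral F τ := IsIntegral.of_finite F τ
  have hmp : minpoly F τ = minpoly F B := by
    rw [← hτ]
    exact (minpoly.algHom_eq (Cfsg.Agent.H27.Psl.rho A (minpoly.aeval F A)) (rho_injective hA) τ).symm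
  have hdvd : (minpoly F τ).natDegree ∣ finrank F (AdjoinRoot (minpoly F A)) := minpoly.degree_dvd hint
  rw [hfr] at hdvd
  rcases (Nat.dvd_prime h3).1 hdvd with h1 | h1
  · exfalso
    have h2 : τ ∈ (algebraMap F (AdjoinRoot (minpoly F A))).range := by
      apply minpoly.mem_range_of_degree_eq_one
      rw [Polynomial.degree_eq_natDegree (minpoly.ne_zero hint), h1]; rfl
    obtain ⟨c, hc⟩ := h2
    apply hns
    refine ⟨c, ?_⟩
    rw [← hτ, ← hc, AlgHom.commutes, Algebra.algebraMap_eq_smul_one]
  · refine ⟨by rw [← hmp, h1], ?_⟩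
    have h2 : IntermediateField.adjoin F {τ} = ⊤ :=
      (Field.primitive_element_iff_minpoly_natDegree_eq F τ).2 (by rw [h1, hfr])
    have h4 : (IntermediateField.adjoin F {τ}).toSubalgebra = Algebra.adjoin F {τ} :=
      IntermediateField.adjoin_simple_toSubalgebra_of_isAlgebraic hint.isAlgebraic
    have h5 : AdjoinRoot.root (minpoly F A) ∈ Algebra.adjoin F {τ} := by
      rw [← h4, h2]; trivial
    rw [Algebra.adjoin_singleton_eq_range_aeval] at h5
    obtain ⟨g, hg⟩ := h5
    refine ⟨g, ?_⟩
    have hg' : aeval τ g = AdjoinRoot.root (minpoly F A) := hg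
    rw [← hroot, ← hg', ← hτ, Polynomial.aeval_algHom_apply]

end field

section cyc

/-- elements of order dividing `p` in a cyclic group -/
theorem mem_zpowers_of_cyclic {C : Type*} [Group C] [Finite C] [IsCyclic C] {p : ℕ} (hp : 0 < p) {x w : C}
    (hx : orderOf x = p) (hw : w ^ p = 1) : w ∈ zpowers x := by
  classical
  have : Fintype C := Fintype.ofFinite _
  have h6 := IsCyclic.card_pow_eq_one_le (α := C) hp
  have h7 : (Finset.univ.filter (fun a : C => a ∈ zpowers x)) =
      Finset.univ.filter (fun a : C => a ^ p = 1) := by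
    apply Finset.eq_of_subset_of_card_le
    · intro a ha
      simp only [Finset.mem_filter, Finset.mem_univ, true_and] at ha ⊢
      obtain ⟨j, hj⟩ := ha
      have hj' : x ^ j = a := hj
      have hxp : x ^ p = 1 := by rw [← hx, pow_orderOf_eq_one]
      rw [← hj', ← zpow_natCast, ← _root_.zpow_mul, mul_comm, _root_.zpow_mul, zpow_natCast, hxp, _root_.one_zpow]
    · refine h6.trans ?_
      rw [← Fintype.card_subtype, ← Nat.card_eq_fintype_card]
      change p ≤ Nat.card (zpowers x)
      rw [Nat.card_zpowers, hx]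
  have h8 : w ∈ Finset.univ.filter (fun a : C => a ^ p = 1) := by
    simp only [Finset.mem_filter, Finset.mem_univ, true_and]
    exact hw
  rw [← h7] at h8
  simpa using h8

end cyc

section gen

variable {F : Type*} [Field F] [Fintype F] {V : Type*} [AddCommGroup V] [Module F V] [Finite V]
  {G : Type*} [Group G] [Finite G] {ρ : G →* Module.End F V} {p e : ℕ}

/-- a cyclic Sylow subgroup and its element of order `p` -/
theorem exists_gen [hp : Fact p.Prime] (hodd : p ≠ 2)
    (hinj : Function.Injective ρ) (hch : (p : F) ≠ 0) (he : ∀ k, p ∣ Fintype.card F ^ k - 1 → e ∣ k)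
    (hdim : finrank F V < 2 * e) (hpG : p ∣ Nat.card G) :
    ∃ (P : Sylow p G) (y x : G), zpowers y = (P : Subgroup G) ∧ x ∈ (P : Subgroup G) ∧ Sit ρ p e x := by
  classical
  obtain ⟨P⟩ : Nonempty (Sylow p G) := inferInstance
  have hPnt : Nontrivial P := by
    rw [← Finite.one_lt_card_iff_nontrivial]
    exact lt_of_lt_of_le hp.out.one_lt (Nat.le_of_dvd Nat.card_pos (P.dvd_card_of_dvd_card hpG))
  have hZnt : Nontrivial (center P) := P.isPGroup'.center_nontrivial
  obtain ⟨⟨⟨x, hxP⟩, hxZ⟩, hx⟩ : ∃ z : center P, orderOf z = p := by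
    apply exists_prime_orderOf_dvd_card'
    obtain ⟨k, hk⟩ := (IsPGroup.iff_card).1 (P.isPGroup'.to_subgroup (center P))
    have hk0 : k ≠ 0 := by
      rintro rfl
      rw [pow_zero] at hk
      have := Finite.one_lt_card_iff_nontrivial.2 hZnt
      omega
    rw [hk]; exact dvd_pow_self p hk0
  have hxo : orderOf x = p := by
    rw [← hx, ← orderOf_coe, ← orderOf_coe]
  have hsit : Sit ρ p e x := ⟨hinj, hxo, hp.out, hodd, hch, he, hdim⟩
  have hcomm : ∀ y ∈ (P : Subgroup G), y * x = x * y := by
    intro y hy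
    have h1 := mem_center_iff.1 hxZ ⟨y, hy⟩
    exact congrArg Subtype.val h1
  have hcyc := hsit.cyclic P hcomm
  obtain ⟨⟨y, hyP⟩, hy⟩ := hcyc.exists_generator
  have hyz : zpowers y = (P : Subgroup G) := by
    apply le_antisymm
    · rw [zpowers_le]; exact hyP
    · intro z hz
      obtain ⟨k, hk⟩ := hy ⟨z, hz⟩
      exact ⟨k, by simpa using congrArg Subtype.val hk⟩
  exact ⟨P, y, x, hyz, hxP, hsit⟩

end gen

section sl

variable {F : Type*} [Field F] [Fintype F] {n : ℕ}

theorem mem_center_of_scalar {g : SpecialLinearGroup (Fin n) F} {c : F} (h : rhoSL n F g = c • 1) :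
    g ∈ center (SpecialLinearGroup (Fin n) F) := by
  rw [mem_center_iff]
  intro k
  apply rhoSL_inj
  rw [map_mul, map_mul, h, smul_mul_assoc, one_mul, mul_smul_comm, mul_one]

/-- an `r`-subgroup normalised by an irreducible element is trivial, `r` the characteristic -/
theorem eq_bot_of_irr {r : ℕ} [hr : Fact r.Prime] [CharP F r] (R : Subgroup (SpecialLinearGroup (Fin n) F))
    (hn : 1 ≤ n) (hR : IsPGroup r R) {y : SpecialLinearGroup (Fin n) F}
    (hy : ∀ g ∈ R, y⁻¹ * g * y ∈ R) (hA : Irr (rhoSL n F y)) : R = ⊥ := by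
  classical
  have hne : Nonempty (Fin n) := ⟨⟨0, by omega⟩⟩
  let _ : MulAction R (Fin n → F) :=
    { smul := fun g v => rhoSL n F (g : SpecialLinearGroup (Fin n) F) v
      one_smul := fun v => by
        change rhoSL n F ((1 : R) : SpecialLinearGroup (Fin n) F) v = v
        rw [coe_one, map_one]; rfl
      mul_smul := fun a b v => by
        change rhoSL n F ((a * b : R) : SpecialLinearGroup (Fin n) F) v = _
        rw [coe_mul, rho_mul_apply]; rfl }
  have h1 := hR.card_modEq_card_fixedPoints (Fin n → F)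
  -- the fixed space
  let W : Submodule F (Fin n → F) :=
    { carrier := {v | ∀ g ∈ R, rhoSL n F g v = v}
      add_mem' := fun {a b} ha hb g hg => by rw [map_add, ha g hg, hb g hg]
      zero_mem' := fun g _ => map_zero _
      smul_mem' := fun c v hv g hg => by rw [map_smul, hv g hg] }
  have hW : W ≠ ⊥ := by
    intro h0
    have h2 : fixedPoints R (Fin n → F) = {0} := by
      ext v
      constructor
      · intro hv
        have h3 : v ∈ W := fun g hg => hv ⟨g, hg⟩
        rw [h0] at h3
        exact h3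
      · rintro rfl g
        exact map_zero (rhoSL n F (g : SpecialLinearGroup (Fin n) F))
    rw [h2, Nat.card_coe_set_eq ({0} : Set (Fin n → F)), Set.ncard_singleton] at h1
    obtain ⟨a, -, ha⟩ := FiniteField.card F r
    have h3 : r ∣ Nat.card (Fin n → F) := by
      rw [Nat.card_eq_fintype_card, Fintype.card_fun, Fintype.card_fin, ha, ← pow_mul]
      exact dvd_pow_self r (Nat.mul_ne_zero a.pos.ne' (by omega))
    have h4 := (h1.dvd_iff dvd_rfl).1 h3
    exact hr.out.one_lt.ne' (Nat.dvd_one.1 h4)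
  have hWy : ∀ v ∈ W, rhoSL n F y v ∈ W := by
    intro v hv g hg
    have h2 := hv _ (hy g hg)
    have h3 : rhoSL n F g (rhoSL n F y v) = rhoSL n F y (rhoSL n F (y⁻¹ * g * y) v) := by
      rw [← rho_mul_apply, ← rho_mul_apply]
      congr 2
      group
    rw [h3, h2]
  have hWt := (hA W hWy).resolve_left hW
  rw [eq_bot_iff]
  intro g hg
  rw [mem_bot]
  apply rhoSL_inj
  rw [map_one]
  apply LinearMap.ext
  intro v
  have : v ∈ W := by rw [hWt]; trivial
  exact this g hg

end sl

end Cfsg.Agent.H409.Cyc
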