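import Cfsg.Agent.H409.FprCycL3

/-!
# `PSL_3(q)`, `p ∣ q ^ 2 + q + 1`: the row
-/

set_option autoImplicit false
set_option linter.unusedSectionVars false

namespace Cfsg.Agent.H409.Cyc

open Module Subgroup MulAction Matrix
open Cfsg.Agent.H27.Psl (Irr)

section torus

variable {F : Type*} [Field F] [Fintype F] {n : ℕ}

theorem torus_comm {x : SpecialLinearGroup (Fin n) F} (hn : 1 ≤ n) (hA : Irr (rhoSL n F x)) :
    ∀ a ∈ centralizer ({x} : Set (SpecialLinearGroup (Fin n) F)),
      ∀ b ∈ centralizer ({x} : Set (SpecialLinearGroup (Fin n) F)), a * b = b * a := by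
  have hne : Nonempty (Fin n) := ⟨⟨0, by omega⟩⟩
  intro a ha b hb
  apply rhoSL_inj
  rw [map_mul, map_mul]
  exact comm_of_comm hA (cent_iff.1 ha) (cent_iff.1 hb)

theorem torus_cyclic {x : SpecialLinearGroup (Fin n) F} (hn : 1 ≤ n) (hA : Irr (rhoSL n F x)) :
    IsCyclic (centralizer ({x} : Set (SpecialLinearGroup (Fin n) F))) := by
  have hne : Nonempty (Fin n) := ⟨⟨0, by omega⟩⟩
  have hirr : Fact (Irreducible (minpoly F (rhoSL n F x))) := ⟨hA.irreducible⟩
  choose e he using fun t : centralizer ({x} : Set (SpecialLinearGroup (Fin n) F)) =>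
    exists_rho hA (cent_iff.1 t.2)
  let f : centralizer ({x} : Set (SpecialLinearGroup (Fin n) F)) →* AdjoinRoot (minpoly F (rhoSL n F x)) :=
    { toFun := e
      map_one' := rho_injective hA (by rw [he, map_one, coe_one, map_one])
      map_mul' := fun a b => rho_injective hA (by rw [map_mul, he, he, he, coe_mul, map_mul]) }
  have hf : Function.Injective f := by
    intro a b hab
    have h1 : e a = e b := hab
    apply Subtype.ext
    apply rhoSL_inj
    rw [← he a, ← he b, h1]
  exact isCyclic_of_subgroup_isDomain f hf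

theorem cent_le_of_nonscalar (hn : n.Prime) {x t : SpecialLinearGroup (Fin n) F} (hA : Irr (rhoSL n F x))
    (ht : t ∈ centralizer ({x} : Set (SpecialLinearGroup (Fin n) F)))
    (hns : t ∉ center (SpecialLinearGroup (Fin n) F)) :
    centralizer ({t} : Set (SpecialLinearGroup (Fin n) F)) ≤ centralizer ({x} : Set (SpecialLinearGroup (Fin n) F)) := by
  have hne : Nonempty (Fin n) := ⟨⟨0, hn.pos⟩⟩
  intro c hc
  rw [cent_iff] at hc ⊢
  obtain ⟨-, g, hg⟩ := nonscalar hA (by rw [Module.finrank_fin_fun]; exact hn) (cent_iff.1 ht)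
    (fun ⟨c, h⟩ => hns (mem_center_of_scalar h))
  have h1 : rhoSL n F x ∈ Subalgebra.centralizer F ({rhoSL n F c} : Set (Module.End F (Fin n → F))) := by
    have h2 : Algebra.adjoin F {rhoSL n F t} ≤
        Subalgebra.centralizer F ({rhoSL n F c} : Set (Module.End F (Fin n → F))) := by
      rw [Algebra.adjoin_le_iff, Set.singleton_subset_iff]
      apply Subalgebra.mem_centralizer_iff _ |>.2
      rintro _ rfl
      apply LinearMap.ext
      intro w
      exact hc w
    rw [← hg]
    exact h2 (Polynomial.aeval_mem_adjoin_singleton F _)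
  have h3 := (Subalgebra.mem_centralizer_iff _).1 h1 _ rfl
  intro w
  exact congrArg (fun T : Module.End F (Fin n → F) => T w) h3

/-- the normaliser of a cyclic subgroup normalises its subgroup of order `p` -/
theorem normalizer_le_of_cyclic {G : Type*} [Group G] [Finite G] {A : Subgroup G} (hA : IsCyclic A) {p : ℕ}
    (hp : 0 < p) {x : G} (hxA : x ∈ A) (hx : orderOf x = p) :
    normalizer (A : Set G) ≤ normalizer (zpowers x : Set G) := by
  intro g hg
  rw [mem_normalizer_iff_map_conj_eq]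
  apply eq_of_le_of_card_ge
  · rw [map_le_iff_le_comap, zpowers_le]
    change g * x * g⁻¹ ∈ zpowers x
    have h1 : g * x * g⁻¹ ∈ A := (mem_normalizer_iff.1 hg x).1 hxA
    have h2 : (⟨g * x * g⁻¹, h1⟩ : A) ∈ zpowers (⟨x, hxA⟩ : A) := by
      apply mem_zpowers_of_cyclic hp (by rw [Subgroup.orderOf_mk]; exact hx)
      apply Subtype.ext
      rw [coe_pow, coe_one]
      change (g * x * g⁻¹) ^ p = 1
      rw [conj_pow, ← hx, pow_orderOf_eq_one, mul_one, mul_inv_cancel]
    obtain ⟨j, hj⟩ := h2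
    exact ⟨j, congrArg Subtype.val hj⟩
  · rw [card_map_of_injective (MulAut.conj _).injective]

/-- subgroups of the torus between the centre and the torus are large -/
theorem hm3 {x : SpecialLinearGroup (Fin 3) F} (hA : Irr (rhoSL 3 F x)) (U : Subgroup (SpecialLinearGroup (Fin 3) F))
    (hZU : center (SpecialLinearGroup (Fin 3) F) ≤ U)
    (hUT : U ≤ centralizer ({x} : Set (SpecialLinearGroup (Fin 3) F)))
    (hne : U ≠ center (SpecialLinearGroup (Fin 3) F)) :
    3 + Nat.card (center (SpecialLinearGroup (Fin 3) F)) ≤ Nat.card U := by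
  classical
  obtain ⟨k, hk⟩ := card_dvd_of_le hZU
  have hZ0 : 0 < Nat.card (center (SpecialLinearGroup (Fin 3) F)) := Nat.card_pos
  have hU0 : 0 < Nat.card U := Nat.card_pos
  have hk2 : 2 ≤ k := by
    rcases Nat.lt_or_ge k 2 with h | h
    · exfalso
      have h3 : k = 0 ∨ k = 1 := by omega
      rcases h3 with h3 | h3
      · rw [h3, mul_zero] at hk; omega
      · rw [h3, mul_one] at hk
        exact hne (eq_of_le_of_card_ge hZU hk.le).symm
    · exact h
  have h2Z : Nat.card (center (SpecialLinearGroup (Fin 3) F)) * 2 ≤ Nat.card U := by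
    rw [hk]; exact Nat.mul_le_mul_left _ hk2
  by_contra hcon
  push Not at hcon
  have hZ3 : Nat.card (center (SpecialLinearGroup (Fin 3) F)) < 3 := by omega
  have hscal : ∀ z ∈ center (SpecialLinearGroup (Fin 3) F), z ^ 2 = 1 → z = 1 := by
    intro z hz hz2
    obtain ⟨c, hc, hc'⟩ := (Matrix.SpecialLinearGroup.mem_center_iff.1 hz)
    have hc3 : c ^ 3 = 1 := by simpa using hc
    have h1 : (z : Matrix (Fin 3) (Fin 3) F) * z = 1 := by
      rw [← Matrix.SpecialLinearGroup.coe_mul, ← sq, hz2, Matrix.SpecialLinearGroup.coe_one]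
    rw [← hc'] at h1
    have h2 := congrFun (congrFun h1 0) 0
    simp only [Matrix.scalar_apply, Matrix.diagonal_mul_diagonal, Matrix.diagonal_apply_eq, Matrix.one_apply_eq] at h2
    have h3 : c = 1 := by
      have h4 : c * c * c = 1 := by rw [← hc3]; ring
      rwa [h2, one_mul] at h4
    apply Subtype.ext
    rw [← hc', h3]
    simp
  have hZne : Nat.card (center (SpecialLinearGroup (Fin 3) F)) ≠ 2 := by
    intro h2
    have : Fact (Nat.Prime 2) := ⟨Nat.prime_two⟩
    obtain ⟨z, hz⟩ := exists_prime_orderOf_dvd_card' (G := center (SpecialLinearGroup (Fin 3) F)) 2 (by rw [h2])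
    have h3 : (z : SpecialLinearGroup (Fin 3) F) = 1 := by
      apply hscal z z.2
      rw [← coe_pow, ← hz, pow_orderOf_eq_one, coe_one]
    have h4 : z = 1 := Subtype.ext h3
    rw [h4, orderOf_one] at hz
    omega
  have hZ1 : Nat.card (center (SpecialLinearGroup (Fin 3) F)) = 1 := by omega
  have hZb : center (SpecialLinearGroup (Fin 3) F) = ⊥ := eq_bot_of_card_eq _ hZ1
  -- an element with `t² = 1` or `t³ = 1`
  have hinj : ∀ t ∈ U, t ≠ 1 → ∀ B : Module.End F (Fin 3 → F), (rhoSL 3 F t - 1) * B = 0 → B = 0 := by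
    intro t ht ht1 B hB
    have hcx := cent_iff.1 (hUT ht)
    rcases hA (LinearMap.ker (rhoSL 3 F t - 1)) (fun u hu => by
      rw [LinearMap.mem_ker, LinearMap.sub_apply, sub_eq_zero, Module.End.one_apply] at hu ⊢
      rw [hcx, hu]) with h | h
    · apply LinearMap.ext
      intro w
      have h1 : B w ∈ LinearMap.ker (rhoSL 3 F t - 1) := by
        rw [LinearMap.mem_ker]
        exact congrArg (fun T : Module.End F (Fin 3 → F) => T w) hB
      rw [h] at h1
      exact h1
    · exfalso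
      apply ht1
      apply rhoSL_inj
      rw [map_one]
      exact sub_eq_zero.1 (LinearMap.ker_eq_top.1 h)
  have hU23 : Nat.card U = 2 ∨ Nat.card U = 3 := by omega
  have hns : ∀ t ∈ U, t ≠ 1 → ¬ ∃ c : F, rhoSL 3 F t = c • 1 := by
    rintro t ht ht1 ⟨c, hc⟩
    have h1 := mem_center_of_scalar hc
    rw [hZb, mem_bot] at h1
    exact ht1 h1
  rcases hU23 with h | h
  · have : Fact (Nat.Prime 2) := ⟨Nat.prime_two⟩
    obtain ⟨t, ht⟩ := exists_prime_orderOf_dvd_card' (G := U) 2 (by rw [h])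
    have ht1 : (t : SpecialLinearGroup (Fin 3) F) ≠ 1 := by
      intro h1
      have : t = 1 := Subtype.ext h1
      rw [this, orderOf_one] at ht
      omega
    have ht2 : (t : SpecialLinearGroup (Fin 3) F) ^ 2 = 1 := by
      rw [← coe_pow, ← ht, pow_orderOf_eq_one, coe_one]
    have h2 : (rhoSL 3 F t) ^ 2 = 1 := by rw [← map_pow, ht2, map_one]
    have h3 := hinj t t.2 ht1 (rhoSL 3 F t + 1) (by
      have : (rhoSL 3 F t - 1) * (rhoSL 3 F t + 1) = (rhoSL 3 F t) ^ 2 - 1 := by
        rw [sub_mul, mul_add, one_mul, mul_one, ← sq]; abel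
      rw [this, h2, sub_self])
    apply hns t t.2 ht1
    refine ⟨-1, ?_⟩
    apply LinearMap.ext
    intro w
    have h4 : rhoSL 3 F t w + w = 0 := congrArg (fun T : Module.End F (Fin 3 → F) => T w) h3
    change rhoSL 3 F t w = (-1 : F) • w
    rw [neg_smul, one_smul]
    exact eq_neg_of_add_eq_zero_left h4
  · have : Fact (Nat.Prime 3) := ⟨Nat.prime_three⟩
    obtain ⟨t, ht⟩ := exists_prime_orderOf_dvd_card' (G := U) 3 (by rw [h])
    have ht1 : (t : SpecialLinearGroup (Fin 3) F) ≠ 1 := by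
      intro h1
      have : t = 1 := Subtype.ext h1
      rw [this, orderOf_one] at ht
      omega
    have ht2 : (t : SpecialLinearGroup (Fin 3) F) ^ 3 = 1 := by
      have h1 := pow_orderOf_eq_one t
      rw [ht] at h1
      rw [← coe_pow, h1, coe_one]
    have h2 : (rhoSL 3 F t) ^ 3 = 1 := by rw [← map_pow, ht2, map_one]
    have h3 := hinj t t.2 ht1 ((rhoSL 3 F t) ^ 2 + rhoSL 3 F t + 1) (by
      have : (rhoSL 3 F t - 1) * ((rhoSL 3 F t) ^ 2 + rhoSL 3 F t + 1) = (rhoSL 3 F t) ^ 3 - 1 := by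
        rw [sub_mul, mul_add, mul_add, one_mul, mul_one, ← pow_succ', ← sq]; abel
      rw [this, h2, sub_self])
    obtain ⟨h4, -⟩ := nonscalar hA (by rw [Module.finrank_fin_fun]; exact Nat.prime_three)
      (cent_iff.1 (hUT t.2)) (hns t t.2 ht1)
    rw [Module.finrank_fin_fun] at h4
    have h5 : (Polynomial.X ^ 2 + Polynomial.X + 1 : Polynomial F).natDegree = 2 := by compute_degree!
    have h6 : (Polynomial.X ^ 2 + Polynomial.X + 1 : Polynomial F) ≠ 0 := by
      intro h0
      rw [h0, Polynomial.natDegree_zero] at h5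
      omega
    have h7 : minpoly F (rhoSL 3 F t) ∣ Polynomial.X ^ 2 + Polynomial.X + 1 := by
      apply minpoly.dvd
      rw [map_add, map_add, map_pow, Polynomial.aeval_X, map_one]
      exact h3
    have h8 := Polynomial.natDegree_le_of_dvd h7 h6
    rw [h4, h5] at h8
    omega

end torus

theorem arith3 {q p f W : ℕ} (hq : 2 ≤ q) (hp7 : 7 ≤ p) (hpB : p ∣ q ^ 2 + q + 1) (hW0 : 0 < W)
    (hW : q ^ 3 ∣ W) (hWf : W ≡ f [MOD p]) (hf : p * f ≤ 3 * (q ^ 2 + q + 1)) : (p + 1) * f ≤ W := by
  obtain ⟨k, rfl⟩ := hW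
  have hq3 : q ^ 3 ≡ 1 [MOD p] := by
    have h1 : p ∣ q ^ 3 - 1 := by
      refine hpB.trans ⟨q - 1, ?_⟩
      obtain ⟨m, rfl⟩ := Nat.exists_eq_add_of_le (show 1 ≤ q by omega)
      have h2 : 1 ≤ (1 + m) ^ 3 := Nat.one_le_pow _ _ (by omega)
      zify [h2, show 1 ≤ 1 + m by omega]
      ring
    exact ((Nat.modEq_iff_dvd' (Nat.one_le_pow _ _ (by omega))).2 h1).symm
  have hkf : k ≡ f [MOD p] := by
    have h1 : q ^ 3 * k ≡ 1 * k [MOD p] := hq3.mul_right k
    rw [one_mul] at h1
    exact h1.symm.trans hWf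
  have hk0 : 0 < k := Nat.pos_of_ne_zero (by rintro rfl; simp at hW0)
  have hpq : p ≤ q ^ 2 + q + 1 := Nat.le_of_dvd (by positivity) hpB
  have hp1 : p + 1 ≤ q ^ 3 := by nlinarith
  rcases Nat.lt_or_ge f p with h | h
  · have h1 : f ≤ k := by
      have h2 : k % p = f % p := hkf
      rw [Nat.mod_eq_of_lt h] at h2
      rw [← h2]; exact Nat.mod_le _ _
    exact Nat.mul_le_mul hp1 h1
  · have hpp : p * p ≤ 3 * (q ^ 2 + q + 1) := (Nat.mul_le_mul_left _ h).trans hf
    rcases Nat.lt_or_ge q 5 with hq5 | hq5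
    · have hq4 : q = 2 ∨ q = 3 ∨ q = 4 := by omega
      rcases hq4 with rfl | rfl | rfl
      · exfalso
        norm_num at hpp
        nlinarith
      · exfalso
        norm_num at hpp hpB
        have : p ≤ 6 := by nlinarith
        omega
      · norm_num at hpp hpB hf ⊢
        have hp9 : p ≤ 7 := by nlinarith
        have hp7' : p = 7 := by omega
        subst hp7'
        have h2 : k % 7 = f % 7 := hkf
        omega
    · have h1 : 1 * (7 * ((p + 1) * f)) ≤ 8 * (p * f) := by nlinarith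
      have h2 : 8 * (p * f) ≤ 24 * (q ^ 2 + q + 1) := by omega
      have h3 : 24 * (q ^ 2 + q + 1) ≤ 7 * q ^ 3 := by nlinarith
      have h4 : q ^ 3 * 1 ≤ q ^ 3 * k := Nat.mul_le_mul_left _ hk0
      omega

theorem pow3_sub {q : ℕ} (hq : 2 ≤ q) : q ^ 3 - 1 = (q - 1) * (q ^ 2 + q + 1) := by
  obtain ⟨m, rfl⟩ := Nat.exists_eq_add_of_le (show 1 ≤ q by omega)
  have h2 : 1 ≤ (1 + m) ^ 3 := Nat.one_le_pow _ _ (by omega)
  zify [h2, show 1 ≤ 1 + m by omega]
  ring

section main

variable {F : Type*} [Field F] [Fintype F]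

theorem card_SL3 : (Fintype.card F - 1) * Nat.card (SpecialLinearGroup (Fin 3) F) =
    (Fintype.card F ^ 3 - 1) * ((Fintype.card F ^ 2 - 1) * Fintype.card F * ((Fintype.card F - 1) * Fintype.card F ^ 2)) := by
  have h1 := Cfsg.Agent.S0242.result (F := F) rfl 3 (by norm_num)
  rw [h1, Fin.prod_univ_three]
  have hq : 2 ≤ Fintype.card F := two_le_q
  set q := Fintype.card F
  have e0 : ((0 : Fin 3) : ℕ) = 0 := rfl
  have e1 : ((1 : Fin 3) : ℕ) = 1 := rfl
  have e2 : ((2 : Fin 3) : ℕ) = 2 := rfl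
  rw [e0, e1, e2, pow_zero, pow_one]
  have h2 : q ^ 3 - q = (q ^ 2 - 1) * q := by rw [Nat.sub_mul, one_mul, ← pow_succ]
  have h3 : q ^ 3 - q ^ 2 = (q - 1) * q ^ 2 := by rw [Nat.sub_mul, one_mul, ← pow_succ']
  rw [h2, h3]
  ring

theorem dvd_B {p : ℕ} [hp : Fact p.Prime] (hch : (p : F) ≠ 0)
    (he : ∀ k, p ∣ Fintype.card F ^ k - 1 → 3 ∣ k) (hpG : p ∣ Nat.card (SpecialLinearGroup (Fin 3) F)) :
    p ∣ Fintype.card F ^ 2 + Fintype.card F + 1 := by
  have hq : 2 ≤ Fintype.card F := two_le_q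
  have hpq : ¬ p ∣ Fintype.card F := by
    intro h
    apply hch
    obtain ⟨r, hr⟩ := CharP.exists F
    have hrp : r.Prime := CharP.char_is_prime F r
    obtain ⟨n, -, hn⟩ := FiniteField.card F r
    rw [hn] at h
    have h1 := (Nat.prime_dvd_prime_iff_eq hp.out hrp).1 (hp.out.dvd_of_dvd_pow h)
    rw [h1]
    exact CharP.cast_eq_zero F r
  have h1 : p ∣ (Fintype.card F - 1) * Nat.card (SpecialLinearGroup (Fin 3) F) := hpG.mul_left _
  rw [card_SL3] at h1
  set q := Fintype.card F
  have hp1 : ¬ p ∣ q - 1 := fun h => by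
    have := he 1 (by rwa [pow_one])
    omega
  have hp2 : ¬ p ∣ q ^ 2 - 1 := fun h => by
    have := he 2 h
    omega
  have h2 : p ∣ q ^ 3 - 1 := by
    rcases hp.out.dvd_mul.1 h1 with h | h
    · exact h
    · exfalso
      rcases hp.out.dvd_mul.1 h with h | h
      · rcases hp.out.dvd_mul.1 h with h | h
        · exact hp2 h
        · exact hpq h
      · rcases hp.out.dvd_mul.1 h with h | h
        · exact hp1 h
        · exact hpq (hp.out.dvd_of_dvd_pow h)
  have h3 : q ^ 3 - 1 = (q - 1) * (q ^ 2 + q + 1) := pow3_sub hq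
  rw [h3] at h2
  exact (hp.out.dvd_mul.1 h2).resolve_left hp1

theorem seven_le {p : ℕ} [hp : Fact p.Prime] (hch : (p : F) ≠ 0)
    (he : ∀ k, p ∣ Fintype.card F ^ k - 1 → 3 ∣ k) (hB : p ∣ Fintype.card F ^ 2 + Fintype.card F + 1) : 7 ≤ p := by
  have h4 := succ_le_of_he hch he
  by_contra hcon
  push Not at hcon
  have h5 : p = 5 := by
    have : p = 4 ∨ p = 5 ∨ p = 6 := by omega
    rcases this with h | h | h
    · exact absurd hp.out (by rw [h]; norm_num)
    · exact h
    · exact absurd hp.out (by rw [h]; norm_num)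
  subst h5
  have h1 : (Fintype.card F ^ 2 + Fintype.card F + 1) % 5 = 0 := Nat.mod_eq_zero_of_dvd hB
  have h2 : Fintype.card F % 5 < 5 := Nat.mod_lt _ (by norm_num)
  rw [Nat.add_mod, Nat.add_mod (Fintype.card F ^ 2), Nat.pow_mod] at h1
  generalize Fintype.card F % 5 = a at h1 h2
  interval_cases a <;> omega

/-- the bound for a transitive action of `SL_3(F)` -/
theorem ratio_sl3 {p r : ℕ} [hp : Fact p.Prime] [hr : Fact r.Prime] [CharP F r] (hodd : p ≠ 2)
    (hch : (p : F) ≠ 0) (he : ∀ k, p ∣ Fintype.card F ^ k - 1 → 3 ∣ k)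
    (hpG : p ∣ Nat.card (SpecialLinearGroup (Fin 3) F))
    {P : Sylow p (SpecialLinearGroup (Fin 3) F)} {x y : SpecialLinearGroup (Fin 3) F}
    (hy : zpowers y = (P : Subgroup (SpecialLinearGroup (Fin 3) F)))
    (hxP : x ∈ (P : Subgroup (SpecialLinearGroup (Fin 3) F))) (hS : Sit (rhoSL 3 F) p 3 x)
    {Ω : Type*} [MulAction (SpecialLinearGroup (Fin 3) F) Ω] [Finite Ω]
    [IsPretransitive (SpecialLinearGroup (Fin 3) F) Ω]
    (hZ : ∀ z ∈ center (SpecialLinearGroup (Fin 3) F), ∀ ω : Ω, z • ω = ω)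
    (hidx : Fintype.card F ^ 3 - 1 ≤ Nat.card Ω * (Fintype.card F - 1)) :
    (p + 1) * Nat.card (fixedBy Ω y) ≤ Nat.card Ω := by
  classical
  by_cases h0 : Nat.card (fixedBy Ω y) = 0
  · rw [h0, mul_zero]; exact Nat.zero_le _
  obtain ⟨ω, hω⟩ : Nonempty (fixedBy Ω y) := (Nat.card_ne_zero.1 h0).1
  have hω' : y • ω = ω := hω
  have hq : 2 ≤ Fintype.card F := two_le_q
  have hA : Irr (rhoSL 3 F x) := hS.irr_top (Module.finrank_fin_fun F)
  let T := centralizer ({x} : Set (SpecialLinearGroup (Fin 3) F))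
  let Z := center (SpecialLinearGroup (Fin 3) F)
  have hcomm : ∀ a ∈ T, ∀ b ∈ T, a * b = b * a := torus_comm (by norm_num) hA
  have hxy : x ∈ zpowers y := by rw [hy]; exact hxP
  have hxT : x ∈ T := mem_centralizer_singleton_iff.2 rfl
  have hyT : y ∈ T := by
    rw [mem_centralizer_singleton_iff]
    obtain ⟨k, rfl⟩ := hxy
    exact ((Commute.refl y).zpow_right k).eq
  have hTy : centralizer ({y} : Set (SpecialLinearGroup (Fin 3) F)) = T := by
    apply le_antisymm
    · intro c hc
      rw [mem_centralizer_singleton_iff] at hc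
      change c ∈ centralizer _
      rw [mem_centralizer_singleton_iff]
      obtain ⟨k, rfl⟩ := hxy
      exact (Commute.zpow_right (show Commute c y from hc) k).eq
    · intro c hc
      rw [mem_centralizer_singleton_iff]
      exact hcomm c hc y hyT
  have hPT : (P : Subgroup (SpecialLinearGroup (Fin 3) F)) ≤ T := by rw [← hy, zpowers_le]; exact hyT
  have hZT : Z ≤ T := by
    intro z hz
    exact mem_centralizer_singleton_iff.2 (mem_center_iff.1 hz x).symm
  have hZp : ¬ p ∣ Nat.card Z := sl_ker he (by norm_num)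
  have hTcard : Nat.card T * (Fintype.card F - 1) ≤ Fintype.card F ^ 3 - 1 := card_cent_SL (by norm_num) hA
  have hNx : Nat.card (normalizer (zpowers x : Set (SpecialLinearGroup (Fin 3) F))) ≤ 3 * Nat.card T :=
    hS.card_normalizer_le
  have hNT : Nat.card (normalizer (T : Set (SpecialLinearGroup (Fin 3) F))) ≤ 3 * Nat.card T := by
    refine le_trans ?_ hNx
    exact Subgroup.card_le_of_le (normalizer_le_of_cyclic (torus_cyclic (by norm_num) hA) hp.out.pos hxT hS.ord)
  have hPc : IsCyclic (P : Subgroup (SpecialLinearGroup (Fin 3) F)) := by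
    rw [← hy]
    infer_instance
  have hNP : Nat.card (normalizer ((P : Subgroup (SpecialLinearGroup (Fin 3) F)) : Set (SpecialLinearGroup (Fin 3) F))) ≤
      3 * Nat.card T := by
    refine le_trans ?_ hNx
    exact Subgroup.card_le_of_le (normalizer_le_of_cyclic hPc hp.out.pos hxP hS.ord)
  have hTΩ : Nat.card T ≤ Nat.card Ω := by
    have h1 := hTcard.trans hidx
    exact Nat.le_of_mul_le_mul_right h1 (by omega)
  have hHidx : (stabilizer (SpecialLinearGroup (Fin 3) F) ω).index = Nat.card Ω :=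
    index_stabilizer_of_transitive _ _
  by_cases hnot : ∃ n ∈ normalizer ((P : Subgroup (SpecialLinearGroup (Fin 3) F)) : Set (SpecialLinearGroup (Fin 3) F)),
      n • ω = ω ∧ n ∉ T
  · obtain ⟨g, hg⟩ := exists_regular Z T (stabilizer (SpecialLinearGroup (Fin 3) F) ω) le_rfl hZT
      (fun z hz => hZ z hz ω) (fun t ht hns => cent_le_of_nonscalar Nat.prime_three hA ht hns) hcomm hNT
      (fun U hZU hUT hne => hm3 hA U hZU hUT hne) (by rw [hHidx]; exact hTΩ)
    refine ti_bound P hy hpG Z T hZT hZp hTy hcomm hNP hω' (fun z hz => hZ z hz ω) (g • ω) ?_ hnot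
    intro t ht hfix
    apply hg t ht
    change (g⁻¹ * t * g) • ω = ω
    rw [mul_smul, mul_smul, hfix, inv_smul_smul]
  · push Not at hnot
    -- the stabiliser has order prime to the characteristic
    let H := stabilizer (SpecialLinearGroup (Fin 3) F) ω
    have hPH : (P : Subgroup (SpecialLinearGroup (Fin 3) F)) ≤ H := by
      rw [← hy, zpowers_le]; exact hω'
    have hpP : p ∣ Nat.card P := P.dvd_card_of_dvd_card hpG
    have hpH : p ∣ Nat.card H := hpP.trans (card_dvd_of_le hPH)
    have hrp : r ≠ p := by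
      rintro rfl
      exact hch (CharP.cast_eq_zero F r)
    have hrH : ¬ r ∣ Nat.card H := by
      intro hrH
      have hNC : normalizer (((P.subtype hPH : Sylow p H) : Subgroup H) : Set H) ≤
          centralizer (((P.subtype hPH : Sylow p H) : Subgroup H) : Set H) := by
        intro h hh
        have h1 : (h : SpecialLinearGroup (Fin 3) F) ∈
            normalizer ((P : Subgroup (SpecialLinearGroup (Fin 3) F)) : Set (SpecialLinearGroup (Fin 3) F)) := by
          rw [mem_normalizer_iff_map_conj_eq]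
          apply eq_of_le_of_card_ge
          · rintro _ ⟨z, hz, rfl⟩
            have h2 := (mem_normalizer_iff.1 hh ⟨z, hPH hz⟩).1 hz
            exact h2
          · rw [card_map_of_injective (MulAut.conj _).injective]
        have h2 : (h : SpecialLinearGroup (Fin 3) F) ∈ T := hnot _ h1 h.2
        rw [mem_centralizer_iff]
        intro z hz
        apply Subtype.ext
        exact hcomm _ (hPT hz) _ h2
      obtain ⟨R, y', hR, hRr, hyo, hyN⟩ := exists_normalises hrp (P.subtype hPH) hNC hpH hrH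
      have hS' : Sit (rhoSL 3 F) p 3 (y' : SpecialLinearGroup (Fin 3) F) :=
        { hS with ord := by rw [orderOf_coe, hyo] }
      have hRr' : IsPGroup r (R.map H.subtype) := hRr.map _
      have h3 := eq_bot_of_irr (R.map H.subtype) (by norm_num) hRr' (y := (y' : SpecialLinearGroup (Fin 3) F))
        (by
          rintro _ ⟨z, hz, rfl⟩
          have h4 := (mem_normalizer_iff.1 (inv_mem hyN) z).1 hz
          rw [inv_inv] at h4
          exact ⟨_, h4, rfl⟩) (hS'.irr_top (Module.finrank_fin_fun F))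
      rw [map_eq_bot_iff_of_injective _ H.subtype_injective] at h3
      exact hR h3
    -- `q³` divides the degree
    have hcop : ∀ m : ℕ, ¬ r ∣ m → Nat.Coprime (Fintype.card F ^ 3) m := by
      intro m hm
      obtain ⟨n, -, hn⟩ := FiniteField.card F r
      rw [hn]
      exact Nat.Coprime.pow_left _ (Nat.Coprime.pow_left _ ((Nat.Prime.coprime_iff_not_dvd hr.out).2 hm))
    have hq3 : Fintype.card F ^ 3 ∣ Nat.card Ω := by
      have h1 : Fintype.card F ^ 3 ∣ (Fintype.card F - 1) * (Nat.card H * Nat.card Ω) := by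
        rw [← hHidx, H.card_mul_index, card_SL3]
        refine ⟨(Fintype.card F ^ 3 - 1) * ((Fintype.card F ^ 2 - 1) * (Fintype.card F - 1)), by ring⟩
      have h2 : ¬ r ∣ Fintype.card F - 1 := by
        intro h
        obtain ⟨n, -, hn⟩ := FiniteField.card F r
        have h3 : r ∣ Fintype.card F := by rw [hn]; exact dvd_pow_self r n.pos.ne'
        have h4 : r ∣ Fintype.card F - (Fintype.card F - 1) := Nat.dvd_sub h3 h
        have h5 : Fintype.card F - (Fintype.card F - 1) = 1 := by omega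
        rw [h5] at h4
        exact hr.out.one_lt.ne' (Nat.dvd_one.1 h4)
      exact (hcop _ hrH).dvd_of_dvd_mul_left ((hcop _ h2).dvd_of_dvd_mul_left h1)
    have hmod : Nat.card Ω ≡ Nat.card (fixedBy Ω y) [MOD p] := by
      have h2 := P.isPGroup'.card_modEq_card_fixedPoints Ω
      have hyP : y ∈ (P : Subgroup (SpecialLinearGroup (Fin 3) F)) := by rw [← hy]; exact mem_zpowers y
      have h3 : fixedPoints P Ω = fixedBy Ω y := by
        ext a
        constructor
        · intro h
          exact h ⟨y, hyP⟩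
        · rintro h ⟨z, hz⟩
          have h4 : zpowers y ≤ stabilizer (SpecialLinearGroup (Fin 3) F) a := by
            rw [zpowers_le]; exact h
          exact h4 (by rw [hy]; exact hz)
      rwa [h3] at h2
    have hpf : p * Nat.card (fixedBy Ω y) ≤ 3 * (Fintype.card F ^ 2 + Fintype.card F + 1) := by
      have h1 := Nat.le_of_dvd Nat.card_pos (fix_dvd_cyc P hy h0)
      have h2 : p ≤ Nat.card P := Nat.le_of_dvd Nat.card_pos hpP
      have h3 : Nat.card T ≤ Fintype.card F ^ 2 + Fintype.card F + 1 := by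
        apply Nat.le_of_mul_le_mul_right (c := Fintype.card F - 1) _ (by omega)
        refine hTcard.trans (le_of_eq ?_)
        obtain ⟨m, hm⟩ := Nat.exists_eq_add_of_le (show 1 ≤ Fintype.card F by omega)
        rw [hm]
        have h2 : 1 ≤ (1 + m) ^ 3 := Nat.one_le_pow _ _ (by omega)
        zify [h2, show 1 ≤ 1 + m by omega]
        ring
      calc p * Nat.card (fixedBy Ω y) ≤ Nat.card P * Nat.card (fixedBy Ω y) := Nat.mul_le_mul_right _ h2
        _ ≤ _ := h1
        _ ≤ 3 * Nat.card T := hNP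
        _ ≤ _ := Nat.mul_le_mul_left _ h3
    have hB := dvd_B hch he hpG
    have hne : Nonempty Ω := ⟨ω⟩
    exact arith3 hq (seven_le hch he hB) hB Nat.card_pos hq3 hmod hpf

/-- **`PSL_3(F)`, `p` of order `3` modulo `|F|`** -/
theorem row_psl3 {p : ℕ} [hp : Fact p.Prime] (hodd : p ≠ 2) (hch : (p : F) ≠ 0)
    (he : ∀ k, p ∣ Fintype.card F ^ k - 1 → 3 ∣ k)
    (hpS : p ∣ Nat.card (ProjectiveSpecialLinearGroup (Fin 3) F)) :
    FprRow (p + 1) 1 p (ProjectiveSpecialLinearGroup (Fin 3) F) := by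
  classical
  have hfin : Finite (ProjectiveSpecialLinearGroup (Fin 3) F) := by
    unfold ProjectiveSpecialLinearGroup
    infer_instance
  obtain ⟨r, hr⟩ := CharP.exists F
  have hrp : Fact r.Prime := ⟨CharP.char_is_prime F r⟩
  have hpG : p ∣ Nat.card (SpecialLinearGroup (Fin 3) F) := hpS.trans (Subgroup.card_quotient_dvd_card _)
  have hq : 2 ≤ Fintype.card F := two_le_q
  obtain ⟨P, y, x, hy, hxP, hS⟩ := exists_gen (ρ := rhoSL 3 F) hodd rhoSL_inj hch he
    (by rw [Module.finrank_fin_fun]; norm_num) hpG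
  intro H hH
  refine ⟨QuotientGroup.mk' (center (SpecialLinearGroup (Fin 3) F)) y, ?_, ?_⟩
  · have hyP : y ∈ (P : Subgroup (SpecialLinearGroup (Fin 3) F)) := by rw [← hy]; exact mem_zpowers y
    obtain ⟨k, hk⟩ := (IsPGroup.iff_orderOf).1 P.isPGroup' ⟨y, hyP⟩
    rw [Subgroup.orderOf_mk] at hk
    have h1 : orderOf (QuotientGroup.mk' (center (SpecialLinearGroup (Fin 3) F)) y) ∣ p ^ k := by
      rw [← hk]; exact orderOf_map_dvd _ _
    obtain ⟨j, -, hj⟩ := (Nat.dvd_prime_pow hp.out).1 h1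
    exact ⟨j, hj⟩
  · rw [one_mul]
    let π : SpecialLinearGroup (Fin 3) F →* ProjectiveSpecialLinearGroup (Fin 3) F :=
      QuotientGroup.mk' (center (SpecialLinearGroup (Fin 3) F))
    let _ : MulAction (SpecialLinearGroup (Fin 3) F) (ProjectiveSpecialLinearGroup (Fin 3) F ⧸ H) :=
      MulAction.compHom _ π
    have htr : IsPretransitive (SpecialLinearGroup (Fin 3) F) (ProjectiveSpecialLinearGroup (Fin 3) F ⧸ H) := by
      constructor
      intro a b
      obtain ⟨s, hs⟩ := exists_smul_eq (ProjectiveSpecialLinearGroup (Fin 3) F) a b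
      obtain ⟨g, rfl⟩ := QuotientGroup.mk'_surjective _ s
      exact ⟨g, hs⟩
    have hmin := (Cfsg.Agent.S2140.result (F := F) rfl 3 le_rfl (by rintro ⟨h, -⟩; omega)).1 H hH
    have hle : Fintype.card F ^ 3 - 1 ≤ Nat.card (ProjectiveSpecialLinearGroup (Fin 3) F ⧸ H) * (Fintype.card F - 1) := by
      rw [← Subgroup.index]
      have h1 : Fintype.card F - 1 ∣ Fintype.card F ^ 3 - 1 := by
        simpa using Nat.sub_dvd_pow_sub_pow (Fintype.card F) 1 3
      calc Fintype.card F ^ 3 - 1 = (Fintype.card F ^ 3 - 1) / (Fintype.card F - 1) * (Fintype.card F - 1) :=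
            (Nat.div_mul_cancel h1).symm
        _ ≤ _ := Nat.mul_le_mul_right _ hmin
    have h1 := ratio_sl3 hodd hch he hpG hy hxP hS (Ω := ProjectiveSpecialLinearGroup (Fin 3) F ⧸ H)
      (fun z hz ω => by
        change π z • ω = ω
        have : π z = 1 := (QuotientGroup.eq_one_iff z).2 hz
        rw [this, one_smul]) hle
    exact h1

end main

end Cfsg.Agent.H409.Cyc
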