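import Cfsg.Agent.H409.FprCycL3b
import Cfsg.Agent.H110.Fpr.GapD
import Cfsg.Agent.S0243

/-!
# `PSL_n(q)`, `p` of order `n` modulo `q`, `n ≥ 4`
-/

set_option autoImplicit false
set_option linter.unusedSectionVars false

namespace Cfsg.Agent.H409.Cyc

open Module Subgroup MulAction Matrix
open Cfsg.Agent.H110.Gap (IrrM gap_four gap_five mi)

section lower

variable {F : Type*} [Field F] [Fintype F] {n : ℕ}

/-- the order of the centre -/
theorem card_center_SL (h2 : 2 ≤ n) :
    Nat.card (center (SpecialLinearGroup (Fin n) F)) = Nat.gcd n (Fintype.card F - 1) := by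
  have h3 := Cfsg.Agent.S0243.result (F := F) rfl n h2
  have h4 := Cfsg.Agent.S0242.result (F := F) rfl n (by omega)
  have hfin : Finite (ProjectiveSpecialLinearGroup (Fin n) F) := by
    unfold ProjectiveSpecialLinearGroup
    infer_instance
  have h5 : Nat.card (SpecialLinearGroup (Fin n) F) =
      Nat.card (ProjectiveSpecialLinearGroup (Fin n) F) * Nat.card (center (SpecialLinearGroup (Fin n) F)) :=
    card_eq_card_quotient_mul_card_subgroup _
  have hq : 2 ≤ Fintype.card F := two_le_q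
  rw [← h4, h5] at h3
  have h6 : 0 < (Fintype.card F - 1) * Nat.card (ProjectiveSpecialLinearGroup (Fin n) F) :=
    Nat.mul_pos (by omega) Nat.card_pos
  apply Nat.eq_of_mul_eq_mul_left h6
  rw [mul_comm _ (Nat.gcd n (Fintype.card F - 1)), h3, mul_assoc]

/-- the indices prime to `p` of `PSL_n(F)` are bounded by the irreducible ones of `SL_n(F)` -/
theorem index_lower {p : ℕ} [hp : Fact p.Prime] (hodd : p ≠ 2) (hch : (p : F) ≠ 0)
    (he : ∀ k, p ∣ Fintype.card F ^ k - 1 → n ∣ k) (h2 : 2 ≤ n)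
    (hpS : p ∣ Nat.card (ProjectiveSpecialLinearGroup (Fin n) F)) {L : ℕ}
    (hL : ∀ K : Subgroup (SpecialLinearGroup (Fin n) F), K ≠ ⊤ → IrrM K → L ≤ K.index)
    (H : Subgroup (ProjectiveSpecialLinearGroup (Fin n) F)) (hH : H ≠ ⊤) (hpH : ¬ p ∣ H.index) :
    L ≤ H.index := by
  have hsurj : Function.Surjective (QuotientGroup.mk' (center (SpecialLinearGroup (Fin n) F))) :=
    QuotientGroup.mk'_surjective _
  have hpG : p ∣ Nat.card (SpecialLinearGroup (Fin n) F) := hpS.trans (Subgroup.card_quotient_dvd_card _)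
  have h1 : (H.comap (QuotientGroup.mk' (center (SpecialLinearGroup (Fin n) F)))).index = H.index :=
    index_comap_of_surjective _ hsurj
  rw [← h1]
  apply hL
  · intro h
    apply hH
    rw [← index_eq_one, ← h1, h, index_top]
  · have h3 := (irr_of_not_dvd hodd hch he h2 hpG _ (by rw [h1]; exact hpH)).2
    intro W hW
    apply h3 W
    intro h hh u hu
    rw [rhoSL_apply]
    exact hW h hh u hu

/-- `p` divides `q ^ n - 1` -/
theorem dvd_pow_sub {p : ℕ} [hp : Fact p.Prime] (hch : (p : F) ≠ 0)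
    (he : ∀ k, p ∣ Fintype.card F ^ k - 1 → n ∣ k) (h2 : 1 ≤ n)
    (hpG : p ∣ Nat.card (SpecialLinearGroup (Fin n) F)) : p ∣ Fintype.card F ^ n - 1 := by
  have hq : 2 ≤ Fintype.card F := two_le_q
  have hpq : ¬ p ∣ Fintype.card F := by
    intro h
    apply hch
    obtain ⟨r, hr⟩ := CharP.exists F
    have hrp : r.Prime := CharP.char_is_prime F r
    obtain ⟨n, -, hn⟩ := FiniteField.card F r
    rw [hn] at h
    have h1 := (Nat.prime_dvd_prime_iff_eq hp.out hrp).1 (hp.out.dvd_of_dvd_pow h)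
    rw [h1]
    exact CharP.cast_eq_zero F r
  have h1 : p ∣ (Fintype.card F - 1) * Nat.card (SpecialLinearGroup (Fin n) F) := hpG.mul_left _
  rw [Cfsg.Agent.S0242.result (F := F) rfl n h2] at h1
  obtain ⟨i, -, hi⟩ := (Prime.dvd_finsetProd_iff hp.out.prime _).1 h1
  have hi2 : (i : ℕ) < n := i.2
  have h3 : Fintype.card F ^ n - Fintype.card F ^ (i : ℕ) =
      Fintype.card F ^ (i : ℕ) * (Fintype.card F ^ (n - i) - 1) := by
    rw [Nat.mul_sub, mul_one, ← pow_add, Nat.add_sub_cancel' hi2.le]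
  rw [h3] at hi
  have h4 : p ∣ Fintype.card F ^ (n - i) - 1 :=
    (hp.out.dvd_mul.1 hi).resolve_left (fun h => hpq (hp.out.dvd_of_dvd_pow h))
  have h5 := Nat.le_of_dvd (by omega) (he _ h4)
  have h6 : n - i = n := by omega
  rwa [h6] at h4

theorem cdiv (k : ℕ) : (Fintype.card F ^ k - 1) / (Fintype.card F - 1) * (Fintype.card F - 1) =
    Fintype.card F ^ k - 1 := by
  apply Nat.div_mul_cancel
  simpa using Nat.sub_dvd_pow_sub_pow (Fintype.card F) 1 k

theorem pow_arith {q n : ℕ} (h : (3 ≤ q ∧ 5 ≤ n) ∨ (2 ≤ q ∧ 6 ≤ n)) : n + 2 ≤ q ^ (n - 3) := by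
  rcases h with ⟨hq, hn⟩ | ⟨hq, hn⟩
  · obtain ⟨m, rfl⟩ := Nat.exists_eq_add_of_le hn
    have : 5 + m + 2 ≤ 3 ^ (5 + m - 3) := by
      have h5 : 5 + m - 3 = m + 2 := by omega
      rw [h5]
      clear hn h5
      induction m with
      | zero => norm_num
      | succ m ih => rw [show m + 1 + 2 = (m + 2) + 1 from rfl, pow_succ]; omega
    exact this.trans (Nat.pow_le_pow_left hq _)
  · obtain ⟨m, rfl⟩ := Nat.exists_eq_add_of_le hn
    have : 6 + m + 2 ≤ 2 ^ (6 + m - 3) := by
      have h5 : 6 + m - 3 = m + 3 := by omega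
      rw [h5]
      clear hn h5
      induction m with
      | zero => norm_num
      | succ m ih => rw [show m + 1 + 3 = (m + 3) + 1 from rfl, pow_succ]; omega
    exact this.trans (Nat.pow_le_pow_left hq _)

theorem big_arith {q n : ℕ} (h : (3 ≤ q ∧ 5 ≤ n) ∨ (2 ≤ q ∧ 6 ≤ n)) :
    (n + 1) * (q ^ n - 1) ≤ (q ^ (n - 1) - 1) * (q ^ (n - 2) - 1) := by
  have h1 := pow_arith h
  have hq : 2 ≤ q := by omega
  have hn : 5 ≤ n := by omega
  set b := q ^ (n - 3) with hb
  have e2 : q ^ (n - 2) = b * q := by rw [hb, ← pow_succ]; congr 1; omega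
  have e1 : q ^ (n - 1) = b * q * q := by rw [hb, ← pow_succ, ← pow_succ]; congr 1; omega
  have e0 : q ^ n = b * q * q * q := by rw [hb, ← pow_succ, ← pow_succ, ← pow_succ]; congr 1; omega
  rw [e0, e1, e2]
  have hb7 : 7 ≤ b := by omega
  have hbq : 1 ≤ b * q := Nat.mul_pos (by omega) (by omega)
  have hbqq : 1 ≤ b * q * q := Nat.mul_pos hbq (by omega)
  have hbqqq : 1 ≤ b * q * q * q := Nat.mul_pos hbqq (by omega)
  clear_value b
  zify [hbq, hbqq, hbqqq]
  have hq' : (2 : ℤ) ≤ q := by exact_mod_cast hq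
  have hn' : (5 : ℤ) ≤ n := by exact_mod_cast hn
  have hb' : (n : ℤ) + 2 ≤ b := by exact_mod_cast h1
  have hb0 : (0 : ℤ) < b := by linarith
  have hq0 : (0 : ℤ) < q := by linarith
  have h5 : (0 : ℤ) ≤ b * q * q * q * (b - (n + 2)) := mul_nonneg (by positivity) (by linarith)
  have h6 : (0 : ℤ) ≤ b * q * (q * q - q - 1) := mul_nonneg (by positivity) (by nlinarith)
  nlinarith [h5, h6]

/-- dimension at least five -/
theorem row_psl5 {p : ℕ} [hp : Fact p.Prime] (hodd : p ≠ 2) (hn : 5 ≤ n)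
    (hch : (p : F) ≠ 0) (he : ∀ k, p ∣ Fintype.card F ^ k - 1 → n ∣ k)
    (hpS : p ∣ Nat.card (ProjectiveSpecialLinearGroup (Fin n) F)) :
    FprRow (p + 1) 1 p (ProjectiveSpecialLinearGroup (Fin n) F) := by
  have hq : 2 ≤ Fintype.card F := two_le_q
  have hpG : p ∣ Nat.card (SpecialLinearGroup (Fin n) F) := hpS.trans (Subgroup.card_quotient_dvd_card _)
  have hpn := dvd_pow_sub hch he (by omega) hpG
  have h62 : ¬ (n = 6 ∧ Fintype.card F = 2) := by
    rintro ⟨rfl, h⟩
    rw [h] at hpn he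
    have h1 : p ∣ 3 * 3 * 7 := by norm_num at hpn ⊢; exact hpn
    rcases hp.out.dvd_mul.1 h1 with h2 | h2
    · have h3 : p = 3 := by
        rcases hp.out.dvd_mul.1 h2 with h3 | h3 <;> exact (Nat.prime_dvd_prime_iff_eq hp.out Nat.prime_three).1 h3
      have := he 2 (by rw [h3]; norm_num)
      omega
    · have h3 : p = 7 := (Nat.prime_dvd_prime_iff_eq hp.out (by norm_num)).1 h2
      have := he 3 (by rw [h3]; norm_num)
      omega
  by_cases h52 : n = 5 ∧ Fintype.card F = 2
  · obtain ⟨rfl, h⟩ := h52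
    have h31 : p = 31 := by
      rw [h] at hpn
      exact (Nat.prime_dvd_prime_iff_eq hp.out (by norm_num)).1 (by norm_num at hpn ⊢; exact hpn)
    have hZ : 0 < Nat.card (center (SpecialLinearGroup (Fin 5) F)) := Nat.card_pos
    refine row_sl_chk (n := 5) hodd (by norm_num) hch he hpS (c := 31) (L := 105) (N := 9999360) (M := 5)
      (by rw [h]; norm_num) ?_ ?_ ?_ (by norm_num) ?_
    · apply index_lower hodd hch he (by norm_num) hpS
      intro K hK hI
      have := gap_five (by norm_num) h62 hK hI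
      rw [h] at this
      exact this
    · refine (Subgroup.card_quotient_dvd_card (center (SpecialLinearGroup (Fin 5) F))).trans ?_
      have h1 := Cfsg.Agent.S0242.result (F := F) h 5 (by norm_num)
      rw [Fin.prod_univ_five] at h1
      norm_num at h1
      rw [h1]
    · rw [h31]; omega
    · rw [h31]; decide
  · have hbig : (3 ≤ Fintype.card F ∧ 5 ≤ n) ∨ (2 ≤ Fintype.card F ∧ 6 ≤ n) := by omega
    have hZ : 1 ≤ Nat.card (center (SpecialLinearGroup (Fin n) F)) := Nat.card_pos
    refine row_sl (n := n) hodd (by omega) hch he hpS (c := (Fintype.card F ^ n - 1) / (Fintype.card F - 1))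
      (L := (Fintype.card F ^ (n - 1) - 1) * ((Fintype.card F ^ (n - 2) - 1) / (Fintype.card F - 1)))
      (cdiv n).ge ?_ ?_
    · intro H hH hpH
      exact index_lower hodd hch he (by omega) hpS (fun K hK hI => gap_five hn h62 hK hI) H hH hpH
    · refine le_trans ?_ (Nat.mul_le_mul_right _ hZ)
      rw [one_mul]
      apply Nat.le_of_mul_le_mul_right (c := Fintype.card F - 1) _ (by omega)
      rw [mul_assoc, mul_assoc, cdiv, cdiv]
      exact big_arith hbig

end lower

section four

variable {F : Type*} [Field F] [Fintype F]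

theorem row_psl44 {p : ℕ} [hp : Fact p.Prime] (hodd : p ≠ 2) (h : Fintype.card F = 4)
    (hch : (p : F) ≠ 0) (he : ∀ k, p ∣ Fintype.card F ^ k - 1 → 4 ∣ k)
    (hpS : p ∣ Nat.card (ProjectiveSpecialLinearGroup (Fin 4) F)) :
    FprRow (p + 1) 1 p (ProjectiveSpecialLinearGroup (Fin 4) F) := by
  have hpG : p ∣ Nat.card (SpecialLinearGroup (Fin 4) F) := hpS.trans (Subgroup.card_quotient_dvd_card _)
  have hpn := dvd_pow_sub hch he (by omega) hpG
  have h17 : p = 17 := by
    rw [h] at hpn he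
    have h1 : p ∣ 3 * 5 * 17 := by norm_num at hpn ⊢; exact hpn
    rcases hp.out.dvd_mul.1 h1 with h2 | h2
    · exfalso
      rcases hp.out.dvd_mul.1 h2 with h3 | h3
      · have h4 := (Nat.prime_dvd_prime_iff_eq hp.out Nat.prime_three).1 h3
        have := he 1 (by rw [h4]; norm_num)
        omega
      · have h4 := (Nat.prime_dvd_prime_iff_eq hp.out Nat.prime_five).1 h3
        have := he 2 (by rw [h4]; norm_num)
        omega
    · exact (Nat.prime_dvd_prime_iff_eq hp.out (by norm_num)).1 h2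
  have hZ : 0 < Nat.card (center (SpecialLinearGroup (Fin 4) F)) := Nat.card_pos
  refine row_sl_chk (n := 4) hodd (by norm_num) hch he hpS (c := 85) (L := 315) (N := 987033600) (M := 20)
    (by rw [h]; norm_num) ?_ ?_ ?_ (by norm_num) ?_
  · apply index_lower hodd hch he (by norm_num) hpS
    intro K hK hI
    have := gap_four (by omega) hK hI
    rw [h] at this
    exact this
  · refine (Subgroup.card_quotient_dvd_card (center (SpecialLinearGroup (Fin 4) F))).trans ?_
    have h1 := Cfsg.Agent.S0242.result (F := F) h 4 (by norm_num)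
    have h3 : (∏ i : Fin 4, (4 ^ 4 - 4 ^ (i : ℕ))) = 3 * 987033600 := by rw [Fin.prod_univ_four]; norm_num
    rw [h3] at h1
    exact (Nat.eq_of_mul_eq_mul_left (by norm_num) h1).dvd
  · rw [h17]; omega
  · rw [h17]; decide

theorem mi_arith {q d : ℕ} (hq : 5 ≤ q) (hd : 1 ≤ d) (hd5 : q = 5 → 2 ≤ d) :
    5 * ((q ^ 2 + 1) * (q + 1)) ≤ d * ((q ^ 3 - 1) * mi q) := by
  rw [mi]
  split_ifs with h3 h5 h7 h9 h11
  · omega
  · subst h5
    have := hd5 rfl
    omega
  · subst h7; omega
  · subst h9; omega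
  · subst h11; omega
  · have h6 : 6 ≤ q := by omega
    have h1 : 5 * (q ^ 2 + 1) ≤ q ^ 3 - 1 := by
      have : 5 * (q ^ 2 + 1) + 1 ≤ q ^ 3 := by nlinarith
      omega
    calc 5 * ((q ^ 2 + 1) * (q + 1)) = 5 * (q ^ 2 + 1) * (q + 1) := by ring
      _ ≤ (q ^ 3 - 1) * (q + 1) := Nat.mul_le_mul_right _ h1
      _ = 1 * ((q ^ 3 - 1) * (q + 1)) := by ring
      _ ≤ _ := Nat.mul_le_mul_right _ hd

theorem row_psl4 {p : ℕ} [hp : Fact p.Prime] (hodd : p ≠ 2) (h5 : 5 ≤ Fintype.card F)
    (hch : (p : F) ≠ 0) (he : ∀ k, p ∣ Fintype.card F ^ k - 1 → 4 ∣ k)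
    (hpS : p ∣ Nat.card (ProjectiveSpecialLinearGroup (Fin 4) F)) :
    FprRow (p + 1) 1 p (ProjectiveSpecialLinearGroup (Fin 4) F) := by
  refine row_sl (n := 4) hodd (by omega) hch he hpS
    (c := (Fintype.card F ^ 2 + 1) * (Fintype.card F + 1))
    (L := (Fintype.card F ^ 3 - 1) * mi (Fintype.card F)) ?_ ?_ ?_
  · set q := Fintype.card F
    have h1 : 1 ≤ q ^ 4 := Nat.one_le_pow _ _ (by omega)
    apply le_of_eq
    zify [h1, show 1 ≤ q by omega]
    ring
  · intro H hH hpH
    exact index_lower hodd hch he (by omega) hpS (fun K hK hI => gap_four (by omega) hK hI) H hH hpH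
  · apply mi_arith h5 Nat.card_pos
    intro h
    rw [card_center_SL (by norm_num), h]
    norm_num

/-- `PSL_4(3)`, `p = 5` -/
theorem row_psl43 {p : ℕ} [hp : Fact p.Prime] (hodd : p ≠ 2) (h : Fintype.card F = 3)
    (hch : (p : F) ≠ 0) (he : ∀ k, p ∣ Fintype.card F ^ k - 1 → 4 ∣ k)
    (hpS : p ∣ Nat.card (ProjectiveSpecialLinearGroup (Fin 4) F)) :
    FprRow (p + 1) 1 p (ProjectiveSpecialLinearGroup (Fin 4) F) := by
  classical
  have hpG : p ∣ Nat.card (SpecialLinearGroup (Fin 4) F) := hpS.trans (Subgroup.card_quotient_dvd_card _)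
  have hpn := dvd_pow_sub hch he (by omega) hpG
  have hp5 : p = 5 := by
    rw [h] at hpn he
    have h1 : p ∣ 2 ^ 4 * 5 := by norm_num at hpn ⊢; exact hpn
    rcases hp.out.dvd_mul.1 h1 with h2 | h2
    · exact absurd ((Nat.prime_dvd_prime_iff_eq hp.out Nat.prime_two).1 (hp.out.dvd_of_dvd_pow h2)) hodd
    · exact (Nat.prime_dvd_prime_iff_eq hp.out Nat.prime_five).1 h2
  subst hp5
  let S := ProjectiveSpecialLinearGroup (Fin 4) F
  have hfin : Finite S := by
    change Finite (ProjectiveSpecialLinearGroup (Fin 4) F)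
    unfold ProjectiveSpecialLinearGroup
    infer_instance
  have hZ2 : Nat.card (center (SpecialLinearGroup (Fin 4) F)) = 2 := by
    rw [card_center_SL (by norm_num), h]; norm_num
  have hcS : Nat.card S = 6065280 := by
    have h1 := Cfsg.Agent.S0243.result (F := F) h 4 (by norm_num)
    have h3 : (∏ i : Fin 4, (3 ^ 4 - 3 ^ (i : ℕ))) = 24261120 := by rw [Fin.prod_univ_four]; norm_num
    rw [h3, show Nat.gcd 4 (3 - 1) = 2 by norm_num] at h1
    change 2 * ((3 - 1) * Nat.card S) = _ at h1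
    omega
  have hker : (QuotientGroup.mk' (center (SpecialLinearGroup (Fin 4) F))).ker =
      center (SpecialLinearGroup (Fin 4) F) := QuotientGroup.ker_mk' _
  obtain ⟨P, y, hy, hNP⟩ := exists_sylow (S := S) (F := F) (ρ := rhoSL 4 F) (p := 5) (e := 4) (c := 40)
    hodd rhoSL_inj hch he (by rw [Module.finrank_fin_fun]; omega) hpG
    (QuotientGroup.mk' (center (SpecialLinearGroup (Fin 4) F))) (QuotientGroup.mk'_surjective _)
    (by rw [hker]) (by rw [hker]; exact sl_ker he (by norm_num)) (fun x hx => by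
      have h1 : Sit (rhoSL 4 F) 5 4 x :=
        ⟨rhoSL_inj, hx, hp.out, hodd, hch, he, by rw [Module.finrank_fin_fun]; omega⟩
      have h2 := card_cent_SL (by omega : 1 ≤ 4) (h1.irr_top (Module.finrank_fin_fun F))
      rw [h] at h2
      change _ * (3 - 1) ≤ 3 ^ 4 - 1 at h2
      omega)
  rw [hker, hZ2] at hNP
  have hNP' : Nat.card (normalizer (P : Set S)) ≤ 80 := by omega
  have hyP : y ∈ (P : Subgroup S) := by rw [← hy]; exact mem_zpowers y
  have hcP : Nat.card P = 5 := by
    rw [P.card_eq_multiplicity, hcS]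
    rw [show (6065280 : ℕ) = 5 * 1213056 by norm_num, Nat.factorization_mul (by norm_num) (by norm_num)]
    simp only [Finsupp.coe_add, Pi.add_apply]
    rw [Nat.Prime.factorization_self (by norm_num), Nat.factorization_eq_zero_of_not_dvd (n := 1213056) (by norm_num)]
    norm_num
  intro H hH
  refine ⟨y, ?_, ?_⟩
  · obtain ⟨k, hk⟩ := (IsPGroup.iff_orderOf).1 P.isPGroup' ⟨y, hyP⟩
    exact ⟨k, by rw [← hk, Subgroup.orderOf_mk]⟩
  rw [one_mul]
  by_cases h0 : Nat.card (fixedBy (S ⧸ H) y) = 0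
  · rw [h0, mul_zero]; exact Nat.zero_le _
  obtain ⟨ω, hω⟩ : Nonempty (fixedBy (S ⧸ H) y) := (Nat.card_ne_zero.1 h0).1
  have hω' : y • ω = ω := hω
  have hmod : H.index ≡ Nat.card (fixedBy (S ⧸ H) y) [MOD 5] := by
    have h2 := P.isPGroup'.card_modEq_card_fixedPoints (S ⧸ H)
    have h3 : fixedPoints P (S ⧸ H) = fixedBy (S ⧸ H) y := by
      ext ω
      constructor
      · intro h
        exact h ⟨y, hyP⟩
      · rintro h ⟨z, hz⟩
        have h4 : zpowers y ≤ stabilizer S ω := by
          rw [zpowers_le]; exact h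
        exact h4 (by rw [hy]; exact hz)
    rwa [h3] at h2
  have hfd := fix_dvd_cyc P hy h0
  rw [hcP] at hfd
  have hf16 := Nat.le_of_dvd Nat.card_pos hfd
  set f := Nat.card (fixedBy (S ⧸ H) y) with hf
  by_cases hf5 : 5 ∣ f
  · -- the index is divisible by 5
    have h1 : Nat.card P * 5 ∣ Nat.card P * (P : Subgroup S).index := by
      rw [(P : Subgroup S).card_mul_index, hcP]
      exact (Nat.mul_dvd_mul_left 5 hf5).trans (hfd.trans (Subgroup.card_subgroup_dvd_card _))
    exact absurd (Nat.dvd_of_mul_dvd_mul_left Nat.card_pos h1) P.not_dvd_index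
  have hpH : ¬ 5 ∣ H.index := fun h => hf5 ((hmod.dvd_iff dvd_rfl).1 h)
  have hL : 78 ≤ H.index := by
    refine index_lower hodd hch he (by norm_num) hpS (fun K hK hI => ?_) H hH hpH
    have := gap_four (by omega) hK hI
    rw [h] at this
    exact this
  change (5 + 1) * f ≤ H.index
  by_contra hcon
  push Not at hcon
  have hfle : f ≤ 16 := by omega
  have hidx : H.index ∣ 6065280 := by rw [← hcS]; exact H.index_dvd_card
  have hm : H.index % 5 = f % 5 := hmod
  have hf16' : f = 16 ∧ H.index = 81 := by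
    have h1 : f = 14 ∨ f = 15 ∨ f = 16 := by omega
    rcases h1 with h1 | h1 | h1
    · exfalso
      have h2 : H.index = 79 := by omega
      rw [h2] at hidx
      norm_num at hidx
    · omega
    · refine ⟨h1, ?_⟩
      have h2 : H.index = 81 ∨ H.index = 86 ∨ H.index = 91 := by omega
      rcases h2 with h2 | h2 | h2
      · exact h2
      · rw [h2] at hidx; norm_num at hidx
      · rw [h2] at hidx; norm_num at hidx
  obtain ⟨hf1, hidx1⟩ := hf16'
  -- the normaliser of `P` has order 80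
  have hN80 : Nat.card (normalizer (P : Set S)) = 80 := by
    rw [hf1] at hf16
    omega
  -- the stabiliser `K` of `ω`
  let K := stabilizer S ω
  have hKidx : K.index = 81 := by
    rw [index_stabilizer_of_transitive]
    exact hidx1
  have hPK : (P : Subgroup S) ≤ K := by
    rw [← hy, zpowers_le]; exact hω'
  have hK13 : 13 ∣ Nat.card K := by
    have h1 := K.card_mul_index
    rw [hKidx, hcS] at h1
    exact ⟨5760, by omega⟩
  have hK5 : 5 ∣ Nat.card K := by
    have h1 := K.card_mul_index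
    rw [hKidx, hcS] at h1
    exact ⟨14976, by omega⟩
  have hstab : Nat.card (normalizer (P : Set S) ⊓ K : Subgroup S) = 5 := by
    have h1 : fixedBy (S ⧸ H) y = orbit (normalizer (P : Set S)) ω := fixed_eq_orbit P hy hω'
    have h2 : (stabilizer (normalizer (P : Set S)) ω).index = 16 := by
      rw [index_stabilizer, ← h1, ← Nat.card_coe_set_eq]
      exact hf.symm.trans hf1
    have h3 := (stabilizer (normalizer (P : Set S)) ω).card_mul_index
    rw [h2, hN80] at h3
    have h4 : Nat.card (stabilizer (normalizer (P : Set S)) ω) = 5 := by omega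
    refine Eq.trans ?_ h4
    refine Nat.card_congr ⟨fun g => ⟨⟨g, g.2.1⟩, g.2.2⟩, fun g => ⟨g, ⟨(g : normalizer (P : Set S)).2, g.2⟩⟩,
      fun _ => rfl, fun _ => rfl⟩
  have hNK : normalizer (P : Set S) ⊓ K = (P : Subgroup S) := by
    symm
    apply eq_of_le_of_card_ge (le_inf le_normalizer hPK)
    exact (hstab.trans hcP.symm).le
  have hPc : ∀ a ∈ (P : Subgroup S), ∀ b ∈ (P : Subgroup S), a * b = b * a := by
    intro a ha b hb
    rw [← hy] at ha hb
    obtain ⟨i, rfl⟩ := ha
    obtain ⟨j, rfl⟩ := hb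
    exact ((Commute.refl y).zpow_zpow i j).eq
  have : Fact (Nat.Prime 13) := ⟨by norm_num⟩
  have hNC : normalizer (((P.subtype hPK : Sylow 5 K) : Subgroup K) : Set K) ≤
      centralizer (((P.subtype hPK : Sylow 5 K) : Subgroup K) : Set K) := by
    intro k hk
    have h1 : (k : S) ∈ normalizer ((P : Subgroup S) : Set S) := by
      rw [mem_normalizer_iff_map_conj_eq]
      apply eq_of_le_of_card_ge
      · rintro _ ⟨z, hz, rfl⟩
        have h2 := (mem_normalizer_iff.1 hk ⟨z, hPK hz⟩).1 hz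
        exact h2
      · rw [card_map_of_injective (MulAut.conj _).injective]
    have h2 : (k : S) ∈ (P : Subgroup S) := by rw [← hNK]; exact ⟨h1, k.2⟩
    rw [mem_centralizer_iff]
    intro z hz
    apply Subtype.ext
    exact hPc _ hz _ h2
  obtain ⟨R, y', hR, hRr, hyo, hyN⟩ := exists_normalises (r := 13) (by norm_num) (P.subtype hPK) hNC hK5 hK13
  -- `R` has order 13
  have hRd : Nat.card R ∣ 6065280 := by
    rw [← hcS]
    exact (Subgroup.card_subgroup_dvd_card R).trans (Subgroup.card_subgroup_dvd_card K)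
  have hRc : Nat.card R = 13 := by
    obtain ⟨k, hk⟩ := (IsPGroup.iff_card).1 hRr
    rw [hk] at hRd ⊢
    have hk0 : k ≠ 0 := by
      rintro rfl
      rw [pow_zero] at hk
      exact hR (eq_bot_of_card_eq _ hk)
    have hk1 : k < 2 := by
      by_contra hc
      push Not at hc
      have := (pow_dvd_pow 13 hc).trans hRd
      norm_num at this
    have : k = 1 := by omega
    rw [this, pow_one]
  -- `y'` centralises `R`
  have : Fact (Nat.card R).Prime := ⟨by rw [hRc]; norm_num⟩
  have hRcyc : IsCyclic R := isCyclic_of_prime_card (p := Nat.card R) rfl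
  have hφ : R.normalizerMonoidHom ⟨y', hyN⟩ = 1 := by
    have h1 : (R.normalizerMonoidHom ⟨y', hyN⟩) ^ 5 = 1 := by
      rw [← map_pow]
      have h2 : (⟨y', hyN⟩ : normalizer (R : Set K)) ^ 5 = 1 := by
        apply Subtype.ext
        change y' ^ 5 = 1
        rw [← hyo, pow_orderOf_eq_one]
      rw [h2, map_one]
    have h2 : orderOf (R.normalizerMonoidHom ⟨y', hyN⟩) ∣ 5 := orderOf_dvd_of_pow_eq_one h1
    have h3 : orderOf (R.normalizerMonoidHom ⟨y', hyN⟩) ∣ 12 := by
      have h4 := orderOf_dvd_natCard (R.normalizerMonoidHom ⟨y', hyN⟩)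
      rw [IsCyclic.card_mulAut, hRc, Nat.totient_prime (by norm_num)] at h4
      exact h4
    rw [← orderOf_eq_one_iff]
    exact Nat.dvd_one.1 (Nat.dvd_gcd h2 h3)
  have hcen : ∀ r ∈ R, y' * r = r * y' := by
    intro r hr
    have h1 : (⟨y', hyN⟩ : normalizer (R : Set K)) ∈ R.normalizerMonoidHom.ker := hφ
    rw [normalizerMonoidHom_ker, mem_subgroupOf] at h1
    exact ((mem_centralizer_iff.1 h1) r hr).symm
  -- the Sylow subgroup generated by `y'`
  have hyo' : orderOf (y' : S) = 5 := by rw [orderOf_coe, hyo]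
  let Q : Sylow 5 S := Sylow.ofCard (zpowers (y' : S)) (by
    rw [Nat.card_zpowers, hyo', ← P.card_eq_multiplicity]
    exact hcP.symm)
  have hNQ : Nat.card (normalizer (Q : Set S)) = 80 := by
    have h1 := (normalizer (Q : Set S)).card_mul_index
    have h2 := (normalizer (P : Set S)).card_mul_index
    have h3 : (normalizer (Q : Set S)).index = (normalizer (P : Set S)).index := by
      rw [← P.card_eq_index_normalizer, ← Q.card_eq_index_normalizer]
    rw [h3, ← h2] at h1
    have h4 : 0 < (normalizer (P : Set S)).index := Nat.pos_of_ne_zero index_ne_zero_of_finite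
    rw [Nat.eq_of_mul_eq_mul_right h4 h1, hN80]
  have hRQ : R.map K.subtype ≤ normalizer (Q : Set S) := by
    rintro _ ⟨r, hr, rfl⟩
    have h1 : (r : S) ∈ centralizer ({(y' : S)} : Set S) := by
      rw [mem_centralizer_singleton_iff]
      exact (congrArg Subtype.val (hcen r hr)).symm
    exact cent_le_norm h1
  have h13 : 13 ∣ Nat.card (normalizer (Q : Set S)) := by
    have h1 := card_dvd_of_le hRQ
    rw [card_map_of_injective K.subtype_injective, hRc] at h1
    exact h1
  rw [hNQ] at h13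
  norm_num at h13

/-- **`PSL_n(F)`, `p` of order `n ≥ 3` modulo `|F|`** -/
theorem cyc_psl {n p : ℕ} [hp : Fact p.Prime] (hodd : p ≠ 2) (hn : 3 ≤ n) (h42 : ¬ (n = 4 ∧ Fintype.card F = 2))
    (hch : (p : F) ≠ 0) (he : ∀ k, p ∣ Fintype.card F ^ k - 1 → n ∣ k)
    (hpS : p ∣ Nat.card (ProjectiveSpecialLinearGroup (Fin n) F)) :
    FprRow (p + 1) 1 p (ProjectiveSpecialLinearGroup (Fin n) F) := by
  have hq : 2 ≤ Fintype.card F := two_le_q
  have h : n = 3 ∨ n = 4 ∨ 5 ≤ n := by omega
  rcases h with rfl | rfl | h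
  · exact row_psl3 hodd hch he hpS
  · have h1 : Fintype.card F = 3 ∨ Fintype.card F = 4 ∨ 5 ≤ Fintype.card F := by omega
    rcases h1 with h1 | h1 | h1
    · exact row_psl43 hodd h1 hch he hpS
    · exact row_psl44 hodd h1 hch he hpS
    · exact row_psl4 hodd h1 hch he hpS
  · exact row_psl5 hodd h hch he hpS

end four

end Cfsg.Agent.H409.Cyc
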