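import Cfsg.Agent.H409.FprCycSL

/-!
# Cyclic Sylow subgroups: TI tori, regular orbits, Burnside
-/

set_option autoImplicit false
set_option linter.unusedSectionVars false

namespace Cfsg.Agent.H409.Cyc

open Module Subgroup MulAction

section count

variable {G : Type*} [Group G] [Finite G]

/-- **A regular orbit of a TI torus**, by counting. -/
theorem exists_regular (Z T H : Subgroup G) (hZc : Z ≤ center G) (hZT : Z ≤ T) (hZH : Z ≤ H)
    (hC : ∀ t ∈ T, t ∉ Z → centralizer ({t} : Set G) ≤ T) (hcomm : ∀ a ∈ T, ∀ b ∈ T, a * b = b * a) {n : ℕ}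
    (hN : Nat.card (normalizer (T : Set G)) ≤ n * Nat.card T)
    (hm : ∀ U : Subgroup G, Z ≤ U → U ≤ T → U ≠ Z → n + Nat.card Z ≤ Nat.card U)
    (hidx : Nat.card T ≤ H.index) : ∃ g : G, ∀ t ∈ T, g⁻¹ * t * g ∈ H → t ∈ Z := by
  classical
  by_contra hcon
  push Not at hcon
  have : Fintype G := Fintype.ofFinite G
  let A : Finset (G × G) := Finset.univ.filter (fun a => a.1 ∈ T ∧ a.1 ∉ Z ∧ a.2⁻¹ * a.1 * a.2 ∈ H)
  have hA : ∀ a : G × G, a ∈ A ↔ a.1 ∈ T ∧ a.1 ∉ Z ∧ a.2⁻¹ * a.1 * a.2 ∈ H := by
    intro a; simp [A]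
  have hT0 : 0 < Nat.card T := Nat.card_pos
  have hn0 : 0 < n := by
    rcases Nat.eq_zero_or_pos n with h | h
    · rw [h, zero_mul] at hN
      have : 0 < Nat.card (normalizer (T : Set G)) := Nat.card_pos
      omega
    · exact h
  -- lower bound
  have hlow : Nat.card G * n ≤ A.card := by
    rw [Finset.card_eq_sum_card_fiberwise (f := Prod.snd) (t := (Finset.univ : Finset G)) (fun _ _ => Finset.mem_coe.2 (Finset.mem_univ _))]
    have h1 : ∀ g ∈ (Finset.univ : Finset G), n ≤ (A.filter (fun a => a.2 = g)).card := by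
      intro g _
      let U : Subgroup G := T ⊓ H.map (MulAut.conj g).toMonoidHom
      have hU : ∀ t, t ∈ U ↔ t ∈ T ∧ g⁻¹ * t * g ∈ H := by
        intro t
        rw [mem_inf]
        refine and_congr_right (fun _ => ?_)
        constructor
        · rintro ⟨h, hh, rfl⟩
          change g⁻¹ * (g * h * g⁻¹) * g ∈ H
          have : g⁻¹ * (g * h * g⁻¹) * g = h := by group
          rw [this]; exact hh
        · intro h
          refine ⟨_, h, ?_⟩
          change g * (g⁻¹ * t * g) * g⁻¹ = t
          group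
      have hZU : Z ≤ U := by
        intro z hz
        rw [hU]
        refine ⟨hZT hz, ?_⟩
        have h2 := mem_center_iff.1 (hZc hz) g
        rw [mul_assoc, ← h2, inv_mul_cancel_left]
        exact hZH hz
      have hne : U ≠ Z := by
        intro h
        obtain ⟨t, ht, htH, htZ⟩ := hcon g
        exact htZ (h ▸ (hU t).2 ⟨ht, htH⟩)
      have h3 := hm U hZU inf_le_left hne
      let S : Finset G := Finset.univ.filter (fun t => t ∈ U ∧ t ∉ Z)
      have hS : Nat.card U = S.card + Nat.card Z := by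
        have e1 : Nat.card U = (Finset.univ.filter (fun t => t ∈ U)).card := by
          rw [Nat.card_eq_fintype_card, Fintype.card_subtype]
        have e2 : Nat.card Z = (Finset.univ.filter (fun t => t ∈ Z)).card := by
          rw [Nat.card_eq_fintype_card, Fintype.card_subtype]
        rw [e1, e2, ← Finset.card_union_of_disjoint]
        · congr 1
          ext t
          simp only [S, Finset.mem_filter, Finset.mem_univ, true_and, Finset.mem_union]
          constructor
          · intro h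
            by_cases hz : t ∈ Z
            · exact Or.inr hz
            · exact Or.inl ⟨h, hz⟩
          · rintro (h | h)
            · exact h.1
            · exact hZU h
        · rw [Finset.disjoint_left]
          intro t h1 h2
          simp only [S, Finset.mem_filter, Finset.mem_univ, true_and] at h1 h2
          exact h1.2 h2
      have h4 : S.card ≤ (A.filter (fun a => a.2 = g)).card := by
        apply Finset.card_le_card_of_injOn (fun t => (t, g))
        · intro t ht
          have ht' : t ∈ U ∧ t ∉ Z := by simpa [S] using ht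
          rw [Finset.mem_coe, Finset.mem_filter, hA]
          exact ⟨⟨((hU t).1 ht'.1).1, ht'.2, ((hU t).1 ht'.1).2⟩, rfl⟩
        · intro a _ b _ hab
          exact congrArg Prod.fst hab
      omega
    have h2 := Finset.sum_le_sum h1
    rw [Finset.sum_const, smul_eq_mul, Finset.card_univ, ← Nat.card_eq_fintype_card] at h2
    exact h2
  -- upper bound
  let φ : G × G → G := fun a => a.2⁻¹ * a.1 * a.2
  have hup : A.card ≤ Nat.card (normalizer (T : Set G)) * (A.image φ).card := by
    apply Finset.card_le_mul_card_image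
    intro h hh
    obtain ⟨⟨t0, g0⟩, ha0, rfl⟩ := Finset.mem_image.1 hh
    have h0 := (hA _).1 ha0
    have e1 : Nat.card (normalizer (T : Set G)) =
        (Finset.univ.filter (fun t => t ∈ normalizer (T : Set G))).card := by
      rw [Nat.card_eq_fintype_card, Fintype.card_subtype]
    rw [e1]
    apply Finset.card_le_card_of_injOn (fun a => a.2 * g0⁻¹)
    · rintro ⟨t, g⟩ ha
      rw [Finset.mem_coe, Finset.mem_filter, hA] at ha
      obtain ⟨⟨h1, h2, h3⟩, h4⟩ := ha
      rw [Finset.mem_coe, Finset.mem_filter]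
      refine ⟨Finset.mem_univ _, ?_⟩
      have h5 : g⁻¹ * t * g = g0⁻¹ * t0 * g0 := h4
      have h6 : t = (g * g0⁻¹) * t0 * (g * g0⁻¹)⁻¹ := by
        calc t = g * (g⁻¹ * t * g) * g⁻¹ := by group
          _ = g * (g0⁻¹ * t0 * g0) * g⁻¹ := by rw [h5]
          _ = _ := by group
      change g * g0⁻¹ ∈ normalizer (T : Set G)
      rw [mem_normalizer_iff_map_conj_eq]
      apply eq_of_le_of_card_ge
      · rintro _ ⟨s, hs, rfl⟩
        change (g * g0⁻¹) * s * (g * g0⁻¹)⁻¹ ∈ T
        apply hC t h1 h2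
        rw [mem_centralizer_singleton_iff, h6]
        have h7 := hcomm s hs t0 h0.1
        calc (g * g0⁻¹) * s * (g * g0⁻¹)⁻¹ * ((g * g0⁻¹) * t0 * (g * g0⁻¹)⁻¹) =
            (g * g0⁻¹) * (s * t0) * (g * g0⁻¹)⁻¹ := by group
          _ = (g * g0⁻¹) * (t0 * s) * (g * g0⁻¹)⁻¹ := by rw [h7]
          _ = _ := by group
      · rw [card_map_of_injective (MulAut.conj (g * g0⁻¹)).injective]
    · rintro ⟨t, g⟩ ha ⟨t', g'⟩ ha' hgg
      rw [Finset.mem_coe, Finset.mem_filter] at ha ha'
      have h1 : g = g' := mul_right_cancel hgg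
      have h2 : g⁻¹ * t * g = g'⁻¹ * t' * g' := ha.2.trans ha'.2.symm
      subst h1
      have h3 : t = t' := mul_left_cancel (mul_right_cancel h2)
      rw [h3]
  have himg : (A.image φ).card < Nat.card H := by
    have e1 : Nat.card H = (Finset.univ.filter (fun t => t ∈ H)).card := by
      rw [Nat.card_eq_fintype_card, Fintype.card_subtype]
    rw [e1]
    apply Finset.card_lt_card
    refine ⟨?_, ?_⟩
    · intro h hh
      obtain ⟨a, ha, rfl⟩ := Finset.mem_image.1 hh
      rw [Finset.mem_filter]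
      exact ⟨Finset.mem_univ _, ((hA a).1 ha).2.2⟩
    · intro hsub
      have h1 : (1 : G) ∈ A.image φ := hsub (by
        rw [Finset.mem_filter]
        exact ⟨Finset.mem_univ _, H.one_mem⟩)
      obtain ⟨⟨t, g⟩, ha, h2⟩ := Finset.mem_image.1 h1
      have h3 : g⁻¹ * t * g = 1 := h2
      have h4 : t = 1 := by
        calc t = g * (g⁻¹ * t * g) * g⁻¹ := by group
          _ = 1 := by rw [h3]; group
      exact ((hA _).1 ha).2.1 (h4 ▸ Z.one_mem)
  have h1 : Nat.card G * n ≤ n * Nat.card T * (A.image φ).card :=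
    hlow.trans (hup.trans (Nat.mul_le_mul_right _ hN))
  rw [← H.card_mul_index] at h1
  have h2 : Nat.card H * Nat.card T * n ≤ Nat.card H * H.index * n :=
    Nat.mul_le_mul_right _ (Nat.mul_le_mul_left _ hidx)
  have h3 : n * Nat.card T * (A.image φ).card < n * Nat.card T * Nat.card H :=
    Nat.mul_lt_mul_of_pos_left himg (Nat.mul_pos hn0 hT0)
  have h4 : n * Nat.card T * Nat.card H = Nat.card H * Nat.card T * n := by ring
  omega

end count

section burnside

/-- a prime-order element normalising a nontrivial `r`-subgroup -/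
theorem exists_normalises {H : Type*} [Group H] [Finite H] {p r : ℕ} [hp : Fact p.Prime] [hr : Fact r.Prime]
    (hpr : r ≠ p) (P : Sylow p H) (hP : normalizer ((P : Subgroup H) : Set H) ≤ centralizer ((P : Subgroup H) : Set H))
    (hpH : p ∣ Nat.card H) (hrH : r ∣ Nat.card H) :
    ∃ (R : Subgroup H) (y : H), R ≠ ⊥ ∧ IsPGroup r R ∧ orderOf y = p ∧ y ∈ normalizer (R : Set H) := by
  classical
  let K : Subgroup H := (MonoidHom.transferSylow P hP).ker
  have hK : IsComplement' K (P : Subgroup H) := MonoidHom.ker_transferSylow_isComplement' P hP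
  have hcard : Nat.card K * Nat.card P = Nat.card H := hK.card_mul_card
  have hidx : K.index = Nat.card P := hK.symm.index_eq_card
  have hrK : r ∣ Nat.card K := by
    rw [← hcard] at hrH
    rcases hr.out.dvd_mul.1 hrH with h | h
    · exact h
    · exfalso
      obtain ⟨k, hk⟩ := P.isPGroup'.exists_card_eq
      rw [hk] at h
      exact hpr ((Nat.prime_dvd_prime_iff_eq hr.out hp.out).1 (hr.out.dvd_of_dvd_pow h))
  obtain ⟨R0⟩ : Nonempty (Sylow r K) := inferInstance
  have hsup := Sylow.normalizer_sup_eq_top R0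
  let R : Subgroup H := (R0 : Subgroup K).map K.subtype
  have hR0 : R ≠ ⊥ := by
    intro h
    have h1 : (R0 : Subgroup K) = ⊥ := (Subgroup.map_eq_bot_iff_of_injective _ K.subtype_injective).1 h
    have h2 := R0.dvd_card_of_dvd_card hrK
    rw [h1, card_bot] at h2
    exact hr.out.one_lt.ne' (Nat.dvd_one.1 h2)
  have hRp : IsPGroup r R := R0.isPGroup'.map _
  let N := normalizer (R : Set H)
  have hNtop : N.map (QuotientGroup.mk' K) = ⊤ := by
    have h1 := congrArg (Subgroup.map (QuotientGroup.mk' K)) hsup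
    rw [Subgroup.map_sup, Subgroup.map_top_of_surjective _ (QuotientGroup.mk'_surjective K)] at h1
    have h2 : K.map (QuotientGroup.mk' K) = ⊥ := by
      rw [Subgroup.map_eq_bot_iff, QuotientGroup.ker_mk']
    rw [h2, sup_bot_eq] at h1
    exact h1
  have hpN : p ∣ Nat.card N := by
    have h1 : Nat.card (N.map (QuotientGroup.mk' K)) ∣ Nat.card N := Subgroup.card_map_dvd N _
    rw [hNtop, card_top] at h1
    refine dvd_trans ?_ h1
    rw [← Subgroup.index, hidx]
    exact P.dvd_card_of_dvd_card hpH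
  obtain ⟨y, hy⟩ := exists_prime_orderOf_dvd_card' p hpN
  exact ⟨R, y, hR0, hRp, by rw [orderOf_coe, hy], y.2⟩

end burnside

section dich

variable {G Ω : Type*} [Group G] [Finite G] [MulAction G Ω] [Finite Ω] [IsPretransitive G Ω] {p : ℕ} [hp : Fact p.Prime]

/-- the fixed points of a cyclic Sylow subgroup form an orbit of its normaliser -/
theorem fixed_eq_orbit (P : Sylow p G) {y : G} (hy : zpowers y = (P : Subgroup G)) {ω : Ω} (hω : y • ω = ω) :
    fixedBy Ω y = orbit (normalizer ((P : Subgroup G) : Set G)) ω := by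
  let N := normalizer ((P : Subgroup G) : Set G)
  have hpow : ∀ {a : Ω}, y • a = a → (P : Subgroup G) ≤ stabilizer G a := by
    intro a ha
    rw [← hy, zpowers_le]; exact ha
  ext a
  constructor
  · intro ha
    have ha' : y • a = a := ha
    obtain ⟨g, hg⟩ := exists_smul_eq G ω a
    have h1 : (P : Subgroup G) ≤ stabilizer G a := hpow ha'
    have h2 : ((g • P : Sylow p G) : Subgroup G) ≤ stabilizer G a := by
      rw [Sylow.smul_def]
      rintro _ ⟨z, hz, rfl⟩
      change (g * z * g⁻¹) • a = a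
      rw [mul_smul, mul_smul, ← hg, inv_smul_smul]
      have h3 : z • ω = ω := hpow hω hz
      rw [h3]
    obtain ⟨s, hs⟩ := exists_smul_eq (stabilizer G a) ((g • P).subtype h2) (P.subtype h1)
    have hmem : ((s : G) * g) ∈ N := by
      have h3 : ∀ z ∈ (P : Subgroup G), (s : G) * g * z * ((s : G) * g)⁻¹ ∈ (P : Subgroup G) := by
        intro z hz
        have hz2 : g * z * g⁻¹ ∈ ((g • P : Sylow p G) : Subgroup G) := by
          rw [Sylow.smul_def]; exact ⟨z, hz, rfl⟩
        have h4 : s * ⟨g * z * g⁻¹, h2 hz2⟩ * s⁻¹ ∈ ((P.subtype h1 : Sylow p (stabilizer G a)) :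
            Subgroup (stabilizer G a)) := by
          rw [← hs, Sylow.smul_def]
          exact ⟨⟨g * z * g⁻¹, h2 hz2⟩, hz2, rfl⟩
        have h5 : (s : G) * (g * z * g⁻¹) * (s : G)⁻¹ ∈ (P : Subgroup G) := h4
        have h6 : (s : G) * g * z * ((s : G) * g)⁻¹ = (s : G) * (g * z * g⁻¹) * (s : G)⁻¹ := by group
        rw [h6]; exact h5
      change (s : G) * g ∈ normalizer ((P : Subgroup G) : Set G)
      rw [mem_normalizer_iff_map_conj_eq]
      apply eq_of_le_of_card_ge
      · rintro _ ⟨z, hz, rfl⟩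
        exact h3 z hz
      · rw [card_map_of_injective (MulAut.conj _).injective]
    refine ⟨⟨(s : G) * g, hmem⟩, ?_⟩
    change ((s : G) * g) • ω = a
    rw [mul_smul, hg]
    exact s.2
  · rintro ⟨⟨n, hn⟩, rfl⟩
    change y • n • ω = n • ω
    rw [← inv_smul_eq_iff, ← mul_smul, ← mul_smul]
    have hyP : y ∈ (P : Subgroup G) := by rw [← hy]; exact mem_zpowers y
    have h1 := (mem_normalizer_iff.1 (inv_mem hn) y).1 hyP
    rw [inv_inv] at h1
    exact hpow hω h1

/-- **The torus is transitive on the fixed points and has a regular orbit.** -/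
theorem ti_bound (P : Sylow p G) {y : G} (hy : zpowers y = (P : Subgroup G)) (hpG : p ∣ Nat.card G)
    (Z T : Subgroup G) (hZT : Z ≤ T) (hZp : ¬ p ∣ Nat.card Z)
    (hTy : centralizer ({y} : Set G) = T) (hcomm : ∀ a ∈ T, ∀ b ∈ T, a * b = b * a)
    (hN : Nat.card (normalizer ((P : Subgroup G) : Set G)) ≤ 3 * Nat.card T) {ω : Ω} (hω : y • ω = ω)
    (hZ : ∀ z ∈ Z, z • ω = ω) (ω1 : Ω) (hω1 : ∀ t ∈ T, t • ω1 = ω1 → t ∈ Z)
    (hnot : ∃ n ∈ normalizer ((P : Subgroup G) : Set G), n • ω = ω ∧ n ∉ T) :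
    (p + 1) * Nat.card (fixedBy Ω y) ≤ Nat.card Ω := by
  classical
  let N := normalizer ((P : Subgroup G) : Set G)
  have hyT : y ∈ T := by rw [← hTy]; exact mem_centralizer_singleton_iff.2 rfl
  have hPT : (P : Subgroup G) ≤ T := by rw [← hy, zpowers_le]; exact hyT
  have hTN : T ≤ N := by
    intro t ht
    change t ∈ normalizer ((P : Subgroup G) : Set G)
    rw [mem_normalizer_iff_map_conj_eq]
    apply eq_of_le_of_card_ge
    · rintro _ ⟨z, hz, rfl⟩
      change t * z * t⁻¹ ∈ (P : Subgroup G)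
      rw [hcomm t ht z (hPT hz), mul_inv_cancel_right]
      exact hz
    · rw [card_map_of_injective (MulAut.conj _).injective]
  -- `T` is normalised by `N`
  have hTnorm : ∀ n ∈ N, ∀ t ∈ T, n * t * n⁻¹ ∈ T := by
    intro n hn t ht
    rw [← hTy, mem_centralizer_singleton_iff]
    have hn' : n⁻¹ * y * n ∈ (P : Subgroup G) := by
      have h1 := (mem_normalizer_iff.1 (inv_mem hn) y).1 (by rw [← hy]; exact mem_zpowers y)
      rwa [inv_inv] at h1
    have h2 := hcomm t ht _ (hPT hn')
    calc n * t * n⁻¹ * y = n * (t * (n⁻¹ * y * n)) * n⁻¹ := by group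
      _ = n * ((n⁻¹ * y * n) * t) * n⁻¹ := by rw [h2]
      _ = _ := by group
  -- the subgroup `M = T (N ∩ G_ω)`
  let S : Subgroup G := N ⊓ stabilizer G ω
  let M : Subgroup G :=
    { carrier := {m | ∃ t ∈ T, ∃ s ∈ S, m = t * s}
      mul_mem' := by
        rintro _ _ ⟨t, ht, s, hs, rfl⟩ ⟨t', ht', s', hs', rfl⟩
        refine ⟨t * (s * t' * s⁻¹), T.mul_mem ht (hTnorm s hs.1 t' ht'), s * s', S.mul_mem hs hs', by group⟩
      one_mem' := ⟨1, T.one_mem, 1, S.one_mem, by rw [one_mul]⟩
      inv_mem' := by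
        rintro _ ⟨t, ht, s, hs, rfl⟩
        refine ⟨s⁻¹ * t⁻¹ * (s⁻¹)⁻¹, hTnorm _ (N.inv_mem hs.1) _ (T.inv_mem ht), s⁻¹, S.inv_mem hs, by group⟩ }
  have hTM : T ≤ M := fun t ht => ⟨t, ht, 1, S.one_mem, by rw [mul_one]⟩
  have hMN : M ≤ N := by
    rintro _ ⟨t, ht, s, hs, rfl⟩
    exact N.mul_mem (hTN ht) hs.1
  have hMN' : M = N := by
    obtain ⟨n, hn, hnω, hnT⟩ := hnot
    have hnM : n ∈ M := ⟨1, T.one_mem, n, ⟨hn, hnω⟩, by rw [one_mul]⟩
    have h1 : Nat.card T ∣ Nat.card M := card_dvd_of_le hTM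
    have h2 : Nat.card M ∣ Nat.card N := card_dvd_of_le hMN
    obtain ⟨a, ha⟩ := h1
    obtain ⟨b, hb⟩ := h2
    have hT0 : 0 < Nat.card T := Nat.card_pos
    have hM0 : 0 < Nat.card M := Nat.card_pos
    have hN0 : 0 < Nat.card N := Nat.card_pos
    have ha2 : 2 ≤ a := by
      by_contra hcon
      have h3 : a = 0 ∨ a = 1 := by omega
      rcases h3 with h3 | h3
      · rw [h3, mul_zero] at ha; omega
      · rw [h3, mul_one] at ha
        have h4 : T = M := eq_of_le_of_card_ge hTM ha.le
        exact hnT (h4 ▸ hnM)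
    have hb1 : b = 1 := by
      by_contra hcon
      have hb2 : 2 ≤ b := by
        rcases Nat.eq_zero_or_pos b with h | h
        · rw [h, mul_zero] at hb; omega
        · omega
      have h5 : Nat.card T * 4 ≤ Nat.card N := by
        rw [hb, ha, mul_assoc]
        exact Nat.mul_le_mul_left _ (Nat.mul_le_mul ha2 hb2)
      have h6 : Nat.card N ≤ 3 * Nat.card T := hN
      omega
    rw [hb1, mul_one] at hb
    exact eq_of_le_of_card_ge hMN hb.le
  -- the fixed points form an orbit of `T`
  have horb : fixedBy Ω y = orbit T ω := by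
    rw [fixed_eq_orbit P hy hω]
    ext a
    constructor
    · rintro ⟨⟨n, hn⟩, rfl⟩
      have hn' : n ∈ M := by rw [hMN']; exact hn
      obtain ⟨t, ht, s, hs, rfl⟩ := hn'
      refine ⟨⟨t, ht⟩, ?_⟩
      change t • ω = (t * s) • ω
      rw [mul_smul, show s • ω = ω from hs.2]
    · rintro ⟨⟨t, ht⟩, rfl⟩
      exact ⟨⟨t, hTN ht⟩, rfl⟩
  have hf : Nat.card (fixedBy Ω y) = (stabilizer T ω).index := by
    rw [index_stabilizer, horb, Nat.card_coe_set_eq]
  have hf1 : (stabilizer T ω1).index = (orbit T ω1).ncard := index_stabilizer _ _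
  -- the orders of the stabilisers
  have hst : p * Nat.card Z ≤ Nat.card (stabilizer T ω) := by
    have h1 : Nat.card ((P : Subgroup G).subgroupOf T) ∣ Nat.card (stabilizer T ω) := by
      apply card_dvd_of_le
      rintro ⟨t, ht⟩ htP
      have h2 : zpowers y ≤ stabilizer G ω := by rw [zpowers_le]; exact hω
      exact h2 (by rw [hy]; exact htP)
    have h2 : Nat.card (Z.subgroupOf T) ∣ Nat.card (stabilizer T ω) := by
      apply card_dvd_of_le
      rintro ⟨t, ht⟩ htZ
      exact hZ t htZ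
    rw [Nat.card_congr (subgroupOfEquivOfLe hPT).toEquiv] at h1
    rw [Nat.card_congr (subgroupOfEquivOfLe hZT).toEquiv] at h2
    have h3 : p ∣ Nat.card (stabilizer T ω) := (P.dvd_card_of_dvd_card hpG).trans h1
    have h4 : Nat.Coprime p (Nat.card Z) := (Nat.Prime.coprime_iff_not_dvd hp.out).2 hZp
    exact Nat.le_of_dvd Nat.card_pos (h4.mul_dvd_of_dvd_of_dvd h3 h2)
  have hst1 : Nat.card (stabilizer T ω1) ≤ Nat.card Z := by
    apply Nat.card_le_card_of_injective (fun t : stabilizer T ω1 => (⟨((t : T) : G), hω1 _ (t : T).2 t.2⟩ : Z))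
    intro a b hab
    exact Subtype.ext (Subtype.ext (congrArg (fun z : Z => (z : G)) hab))
  have hyZ : y ∉ Z := by
    intro h
    apply hZp
    have h1 : Nat.card P ∣ Nat.card Z := card_dvd_of_le (by

      rw [← hy, zpowers_le]; exact h)
    exact (P.dvd_card_of_dvd_card hpG).trans h1
  have hdisj : Disjoint (fixedBy Ω y) (orbit T ω1) := by
    rw [Set.disjoint_left]
    rintro _ ha ⟨⟨t, ht⟩, rfl⟩
    apply hyZ
    apply hω1 y hyT
    have h1 : y • t • ω1 = t • ω1 := ha
    rw [← mul_smul, hcomm y hyT t ht, mul_smul] at h1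
    exact smul_left_cancel _ h1
  have hsum : (fixedBy Ω y).ncard + (orbit T ω1).ncard ≤ Nat.card Ω := by
    rw [← Set.ncard_union_eq hdisj (Set.toFinite _) (Set.toFinite _)]
    exact Set.ncard_le_card _
  rw [Nat.card_coe_set_eq] at hf ⊢
  have h1 := (stabilizer T ω).card_mul_index
  have h2 := (stabilizer T ω1).card_mul_index
  rw [← hf] at h1
  rw [hf1] at h2
  have hZ0 : 0 < Nat.card Z := Nat.card_pos
  apply Nat.le_of_mul_le_mul_left _ hZ0
  set f := (fixedBy Ω y).ncard
  have h3 : p * Nat.card Z * f ≤ Nat.card T := by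
    rw [← h1]; exact Nat.mul_le_mul_right _ hst
  have h4 : Nat.card T ≤ Nat.card Z * (orbit T ω1).ncard := by
    rw [← h2]; exact Nat.mul_le_mul_right _ hst1
  calc Nat.card Z * ((p + 1) * f) = p * Nat.card Z * f + Nat.card Z * f := by ring
    _ ≤ Nat.card Z * (orbit T ω1).ncard + Nat.card Z * f := Nat.add_le_add_right (h3.trans h4) _
    _ = Nat.card Z * (f + (orbit T ω1).ncard) := by ring
    _ ≤ _ := Nat.mul_le_mul_left _ hsum

end dich

end Cfsg.Agent.H409.Cyc
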