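import Cfsg.Agent.H409.FprAvg
import Cfsg.Agent.H463.LieSplit
import Cfsg.Agent.H554.SplitTorus
import Cfsg.Agent.H554.Base
import Cfsg.Agent.H716.SplitAb

/-!
# Fixed point ratios of unipotent elements: parabolic subgroups
-/

set_option autoImplicit false

open scoped Pointwise

namespace Cfsg.Agent.H409.Own

open Cfsg Subgroup MulAction
open Cfsg.Agent.LieExceptional.BNPairCore Cfsg.Agent.Tits.Core Cfsg.Agent.Tits.Core.Bldg Cfsg.Agent.Tits.OfBN
  Cfsg.Agent.Schreier.BNSch Cfsg.Agent.Tits.OppRes Cfsg.Agent.FixBN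

section

variable {K : Type*} [Group K] [Finite K] {p : ℕ} {P : Cfsg.BNPair K} {U : Subgroup K}

/-- **Regular unipotent elements** fix only one chamber. -/
theorem exists_regular [hp : Fact p.Prime] (h : Split P p U)
    (hT : ∀ a ∈ P.B ⊓ P.N, ∀ b ∈ P.B ⊓ P.N, a * b = b * a) :
    ∃ z ∈ U, ∀ y : K ⧸ P.B, z • y = y → y = QuotientGroup.mk 1 := by
  have hN : ((P.B ⊓ P.N).subgroupOf P.N).Normal := normal_subgroupOf P
  obtain ⟨M, cs, hcs'⟩ := S0320.result P
  have hcs : ∀ i, cs.simple i = QuotientGroup.mk (⟨((Equiv.refl P.S i : P.S) : K), P.subset (Equiv.refl P.S i).2⟩ : P.N) :=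
    hcs'
  have hI : Finite P.S := OfBN.finite_I (Equiv.refl P.S)
  have hW : Finite (WP P) := inferInstance
  let Δ := bldg P (Equiv.refl P.S) cs hcs
  let Sy := OfBN.sys (Equiv.refl P.S) cs hcs h
  have F : Cox cs := inferInstance
  have hfaith : FaithfulSMul K (K ⧸ P.B) := Tits.OfBN.faithful P h.core
  obtain ⟨n, hn⟩ := QuotientGroup.mk_surjective (w0 cs)
  have hopp : Δ.Opp (QuotientGroup.mk 1) (QuotientGroup.mk (n : K)) := by
    show Δ.δ (QuotientGroup.mk 1) (QuotientGroup.mk (n : K)) = w0 cs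
    rw [show Δ.δ (QuotientGroup.mk 1) (QuotientGroup.mk (n : K)) = wt P (1⁻¹ * (n : K)) from bldg_δ_mk _ _ _ _ _ _,
      inv_one, one_mul, wt_of_mem P (self_mem_C (n : K)), hn]
  have hstab : ∀ a : K, a • (QuotientGroup.mk 1 : K ⧸ P.B) = QuotientGroup.mk 1 →
      a • (QuotientGroup.mk (n : K) : K ⧸ P.B) = QuotientGroup.mk (n : K) → a ∈ P.B ⊓ P.N := by
    intro a h1 h2
    have haB : a ∈ P.B := by
      have := OfBN.smul_mk_eq.1 h1
      simpa using this
    obtain ⟨u, hu, t, ht, rfl⟩ := h.cover' haB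
    have ht2 : t • (QuotientGroup.mk (n : K) : K ⧸ P.B) = QuotientGroup.mk (n : K) := by
      rw [OfBN.smul_mk_eq]
      exact conj_mem_inv n.2 ht.1 ht.2
    have hu2 : u • (QuotientGroup.mk (n : K) : K ⧸ P.B) = QuotientGroup.mk (n : K) := by
      rw [mul_smul, ht2] at h2
      exact h2
    have hu' : u ∈ Sy.U (QuotientGroup.mk 1) := by
      show u ∈ OfBN.UU P U (QuotientGroup.mk 1)
      rw [OfBN.mem_UU h]
      simpa using hu
    have hu1 := Sy.free _ _ hopp u hu' hu2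
    rw [hu1, one_mul]
    exact ht
  obtain ⟨z, hz, hfix, -⟩ := H463.RegUnip.exists_regular_unipotent Sy (thick P (Equiv.refl P.S) cs hcs) hfaith hopp
    (fun a b ha1 ha2 hb1 hb2 => hT a (hstab a ha1 ha2) b (hstab b hb1 hb2))
  have hz' : z ∈ OfBN.UU P U (QuotientGroup.mk 1) := hz
  rw [OfBN.mem_UU h] at hz'
  exact ⟨z, by simpa using hz', fun y hy => hfix y hy⟩

omit [Finite K] in
/-- `B / U` abelian implies that the torus is abelian. -/
theorem torus_comm [hp : Fact p.Prime] (h : Split P p U)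
    (hab : ∀ x ∈ P.B, ∀ y ∈ P.B, x * y * x⁻¹ * y⁻¹ ∈ U) :
    ∀ a ∈ P.B ⊓ P.N, ∀ b ∈ P.B ⊓ P.N, a * b = b * a := by
  intro a ha b hb
  obtain ⟨m, hm, hH⟩ := h.tor
  have h1 : a * b * a⁻¹ * b⁻¹ ∈ P.B ⊓ P.N :=
    mul_mem (mul_mem (mul_mem ha hb) (inv_mem ha)) (inv_mem hb)
  have h2 : a * b * a⁻¹ * b⁻¹ ∈ U := hab a ha.1 b hb.1
  have h3 := hH _ h1.1 h1.2
  obtain ⟨k, hk⟩ := h.isP ⟨_, h2⟩
  have hk' : (a * b * a⁻¹ * b⁻¹) ^ p ^ k = 1 := congrArg (fun z : U => (z : K)) hk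
  have hcop : Nat.Coprime m (p ^ k) := Nat.Coprime.pow_right _ ((Nat.Prime.coprime_iff_not_dvd hp.1).2 hm).symm
  have h6 : orderOf (a * b * a⁻¹ * b⁻¹) = 1 :=
    Nat.eq_one_of_dvd_coprimes hcop (orderOf_dvd_of_pow_eq_one h3) (orderOf_dvd_of_pow_eq_one hk')
  rw [orderOf_eq_one_iff] at h6
  calc a * b = (a * b * a⁻¹ * b⁻¹) * (b * a) := by group
    _ = b * a := by rw [h6, one_mul]

/-- `U` is a Sylow `p`-subgroup. -/
theorem exists_sylow_eq [hp : Fact p.Prime] (h : Split P p U) :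
    ∃ S : Sylow p K, (S : Subgroup K) = U := by
  obtain ⟨S, hS⟩ := h.isP.exists_le_sylow
  refine ⟨S, ?_⟩
  by_contra hne
  have hlt : U < (S : Subgroup K) := lt_of_le_of_ne hS (fun h1 => hne h1.symm)
  -- an element of `S` outside `U` normalising `U`
  have h1 : U.subgroupOf (S : Subgroup K) < ⊤ := by
    rw [lt_top_iff_ne_top]
    intro h2
    rw [subgroupOf_eq_top] at h2
    exact not_le_of_gt hlt h2
  have hnil : Group.IsNilpotent (S : Subgroup K) := S.isPGroup'.isNilpotent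
  have h2 := Group.normalizerCondition_of_isNilpotent (U.subgroupOf (S : Subgroup K)) h1
  obtain ⟨x, hx1, hx2⟩ := SetLike.exists_of_lt h2
  apply hx2
  rw [mem_subgroupOf]
  have hxB : (x : K) ∈ P.B := by
    rw [← h.normalizer_eq]
    rw [mem_normalizer_iff]
    intro y
    constructor
    · intro hy
      have := (mem_normalizer_iff.1 hx1 ⟨y, hS hy⟩).1 (by rw [mem_subgroupOf]; exact hy)
      rw [mem_subgroupOf] at this
      exact this
    · intro hy
      have hyS : y ∈ (S : Subgroup K) := by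
        have h3 := (S : Subgroup K).mul_mem ((S : Subgroup K).mul_mem ((S : Subgroup K).inv_mem x.2) (hS hy)) x.2
        have h4 : (x : K)⁻¹ * ((x : K) * y * (x : K)⁻¹) * x = y := by group
        rwa [h4] at h3
      have := (mem_normalizer_iff.1 hx1 ⟨y, hyS⟩).2 (by rw [mem_subgroupOf]; exact hy)
      rw [mem_subgroupOf] at this
      exact this
  obtain ⟨k, hk⟩ := S.isPGroup' x
  have hk' : (x : K) ^ p ^ k = 1 := congrArg (fun z : S => (z : K)) hk
  exact h.mem_of_pow hxB hk'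

end

/-- A `p`-element fixing a coset of `Z ≥ B`, `p` not dividing `|Z:B|`, fixes a coset of `B` inside it. -/
theorem exists_fixed_below {K : Type*} [Group K] [Finite K] {p : ℕ} [hp : Fact p.Prime] {B Z : Subgroup K}
    (hBZ : ¬ p ∣ B.relIndex Z) {z : K} (hz : IsPGroup p (zpowers z)) {g : K}
    (hg : z • (g : K ⧸ Z) = (g : K ⧸ Z)) : ∃ h ∈ Z, z • ((g * h : K) : K ⧸ B) = ((g * h : K) : K ⧸ B) := by
  -- the conjugate of `z` lies in `Z` and acts on `Z / B`
  have h1 : g⁻¹ * z * g ∈ Z := by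
    have h2 : ((z * g : K) : K ⧸ Z) = (g : K ⧸ Z) := hg
    rw [eq_comm, QuotientGroup.eq] at h2
    rwa [mul_assoc]
  set y : Z := ⟨g⁻¹ * z * g, h1⟩ with hy
  have hyp : IsPGroup p (zpowers y) := by
    rintro ⟨_, n, rfl⟩
    obtain ⟨k, hk⟩ := hz ⟨z, mem_zpowers z⟩
    have hk' : z ^ p ^ k = 1 := congrArg (fun w : zpowers z => (w : K)) hk
    have hyk : y ^ p ^ k = 1 := by
      apply Subtype.ext
      change (g⁻¹ * z * g) ^ p ^ k = 1
      have : g⁻¹ * z * g = g⁻¹ * z * g⁻¹⁻¹ := by rw [inv_inv]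
      rw [this, conj_pow, hk']
      simp
    refine ⟨k, Subtype.ext ?_⟩
    change (y ^ n) ^ p ^ k = 1
    rw [← zpow_natCast, ← zpow_mul, mul_comm, zpow_mul, zpow_natCast, hyk, one_zpow]
  have hcard : ¬ p ∣ Nat.card (Z ⧸ B.subgroupOf Z) := hBZ
  obtain ⟨w, hw⟩ := hyp.nonempty_fixed_point_of_prime_not_dvd_card (Z ⧸ B.subgroupOf Z) hcard
  obtain ⟨h, rfl⟩ := QuotientGroup.mk_surjective w
  have h3 : ((y * h : Z) : Z ⧸ B.subgroupOf Z) = (h : Z ⧸ B.subgroupOf Z) := hw ⟨y, mem_zpowers y⟩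
  rw [QuotientGroup.eq, mem_subgroupOf] at h3
  refine ⟨h, h.2, ?_⟩
  change ((z * (g * h) : K) : K ⧸ B) = ((g * h : K) : K ⧸ B)
  rw [QuotientGroup.eq]
  have h4 : (z * (g * (h : K)))⁻¹ * (g * h) = (((y * h)⁻¹ * h : Z) : K) := by
    rw [hy]
    push_cast
    group
  rw [h4]
  exact h3

/-- The case of a subgroup of index prime to the characteristic. -/
theorem of_not_dvd_index {K : Type*} [Group K] [Finite K] [IsSimpleGroup K] {p : ℕ} [hp : Fact p.Prime]
    {P : Cfsg.BNPair K} {U : Subgroup K} (hne : P.S.Nonempty) (hS : Split P p U)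
    (hab : ∀ x ∈ P.B, ∀ y ∈ P.B, x * y * x⁻¹ * y⁻¹ ∈ U) {H : Subgroup K} (hH : H ≠ ⊤)
    (hi : ¬ p ∣ H.index) :
    ∃ x : K, (∃ k : ℕ, orderOf x = p ^ k) ∧
      (p + 1) * Nat.card (fixedBy (K ⧸ H) x) ≤ 1 * Nat.card (K ⧸ H) := by
  obtain ⟨S, hSU⟩ := exists_sylow_eq hS
  -- a conjugate of `H` contains `U`
  obtain ⟨S', hS'⟩ : ∃ S' : Sylow p K, (S' : Subgroup K) ≤ H := by
    obtain ⟨R⟩ : Nonempty (Sylow p H) := inferInstance
    have hR : IsPGroup p ((R : Subgroup H).map H.subtype) := R.isPGroup'.map _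
    have hRi : ¬ p ∣ ((R : Subgroup H).map H.subtype).index := by
      rw [Subgroup.index_map_subtype]
      intro h
      rcases hp.out.dvd_mul.1 h with h | h
      · exact R.not_dvd_index h
      · exact hi h
    refine ⟨hR.toSylow hRi, ?_⟩
    exact Subgroup.map_subtype_le _
  obtain ⟨g, hg⟩ := exists_smul_eq K S' S
  have hUH : U ≤ MulAut.conj g • H := by
    rw [← hSU, ← hg, Sylow.coe_subgroup_smul]
    exact Subgroup.pointwise_smul_le_pointwise_smul_iff.2 hS'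
  have hH' : MulAut.conj g • H ≠ ⊤ := by
    intro h1
    apply hH
    rw [eq_top_iff]
    intro x _
    have h2 : MulAut.conj g • x ∈ MulAut.conj g • H := by rw [h1]; trivial
    rwa [smul_mem_pointwise_smul_iff] at h2
  obtain ⟨Z, hHZ, hBZ, s, hs, hsZ⟩ := H554.SplitTorus.exists_parabolic P hne hS hUH hH'
  have hZ : Z ≠ ⊤ := by
    rintro rfl
    exact hsZ trivial
  obtain ⟨z, hzU, hzfix⟩ := exists_regular hS (torus_comm hS hab)
  have hzp : IsPGroup p (zpowers z) := hS.isP.to_le (zpowers_le.2 hzU)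
  obtain ⟨k, hk⟩ := (IsPGroup.iff_orderOf).1 hS.isP ⟨z, hzU⟩
  have hk' : orderOf z = p ^ k := by
    rw [← hk]
    exact Subgroup.orderOf_coe (⟨z, hzU⟩ : U)
  -- indices
  have hnB : normalizer ((S : Subgroup K) : Set K) = P.B := by rw [hSU]; exact hS.normalizer_eq
  have hmod : Z.index ≡ 1 [MOD p] := H554.index_modEq_one S (by rw [hnB]; exact hBZ)
  have hBi : ¬ p ∣ P.B.index := by
    have h1 := H554.index_modEq_one S (M := P.B) hnB.le
    intro h2
    have h3 : 1 ≡ 0 [MOD p] := h1.symm.trans ((Nat.modEq_zero_iff_dvd).2 h2)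
    have h4 := (Nat.modEq_zero_iff_dvd).1 h3
    exact hp.out.one_lt.ne' (Nat.dvd_one.1 h4)
  have hrel : ¬ p ∣ P.B.relIndex Z := by
    intro h1
    apply hBi
    rw [← Subgroup.relIndex_mul_index hBZ]
    exact h1.mul_right _
  -- the fixed points of `z` on the cosets of `Z`
  have hfixZ : Nat.card (fixedBy (K ⧸ Z) z) ≤ 1 := by
    have : Subsingleton (fixedBy (K ⧸ Z) z) := by
      have key : ∀ ω : K ⧸ Z, z • ω = ω → ω = QuotientGroup.mk 1 := by
        intro ω hω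
        obtain ⟨g, rfl⟩ := QuotientGroup.mk_surjective ω
        obtain ⟨h, hh, hfix⟩ := exists_fixed_below hrel hzp hω
        have h1 := hzfix _ hfix
        rw [QuotientGroup.eq] at h1 ⊢
        have h2 := Z.mul_mem hh (hBZ h1)
        have h3 : h * ((g * h)⁻¹ * 1) = g⁻¹ * 1 := by group
        rwa [h3] at h2
      constructor
      rintro ⟨a, ha⟩ ⟨b, hb⟩
      exact Subtype.ext ((key a ha).trans (key b hb).symm)
    exact Finite.card_le_one_iff_subsingleton.2 this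
  have hZi : p + 1 ≤ Z.index := by
    have h1 : Z.index ≠ 1 := fun h => hZ (Subgroup.index_eq_one.1 h)
    have h0 : Z.index ≠ 0 := index_ne_zero_of_finite
    have h2 : p ∣ Z.index - 1 := (Nat.modEq_iff_dvd' (by omega)).1 hmod.symm
    have h3 := Nat.le_of_dvd (by omega) h2
    omega
  have hZle : (p + 1) * Nat.card (fixedBy (K ⧸ Z) z) ≤ 1 * Nat.card (K ⧸ Z) := by
    calc (p + 1) * Nat.card (fixedBy (K ⧸ Z) z) ≤ (p + 1) * 1 := Nat.mul_le_mul_left _ hfixZ
      _ ≤ 1 * Nat.card (K ⧸ Z) := by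
        rw [mul_one, one_mul]
        exact hZi
  -- back to `H`
  refine ⟨MulAut.conj g⁻¹ z, ⟨k, ?_⟩, ?_⟩
  · rw [← hk']
    exact orderOf_injective (MulAut.conj g⁻¹).toMonoidHom (MulAut.conj g⁻¹).injective z
  · let φ : (K ⧸ H) → (K ⧸ Z) := Quotient.map' (fun a => g * a * g⁻¹) (fun a b hab => by
      rw [QuotientGroup.leftRel_apply] at hab ⊢
      apply hHZ
      have h1 : (g * a * g⁻¹)⁻¹ * (g * b * g⁻¹) = MulAut.conj g • (a⁻¹ * b) := by
        rw [MulAut.smul_def, MulAut.conj_apply]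
        group
      rw [h1, smul_mem_pointwise_smul_iff]
      exact hab)
    refine fix_le_of_map (Ω := K ⧸ H) (Ω' := K ⧸ Z) (MulAut.conj g).toMonoidHom
      (MulAut.conj g).surjective φ ?_ _ ?_
    · intro a w
      obtain ⟨w, rfl⟩ := QuotientGroup.mk_surjective w
      change ((g * (a * w) * g⁻¹ : K) : K ⧸ Z) = (((g * a * g⁻¹) * (g * w * g⁻¹) : K) : K ⧸ Z)
      congr 1
      group
    · have h1 : (MulAut.conj g).toMonoidHom (MulAut.conj g⁻¹ z) = z := by
        change g * (g⁻¹ * z * g⁻¹⁻¹) * g⁻¹ = z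
        group
      rw [h1]
      exact hZle

/-- Own characteristic: it suffices that the maximal subgroups of index not divisible by `p²` have
index prime to `p`. -/
theorem row_of_par {p : ℕ} [hp : Fact p.Prime] {K : Type*} [Group K] [Finite K] [IsSimpleGroup K]
    (hs : Cfsg.Agent.Omega.ML.LieRow.CRB.HasSplitAb p K)
    (hpar : ∀ H : Subgroup K, IsCoatom H → ¬ p ^ 2 ∣ H.index → ¬ p ∣ H.index) :
    FprRow (p + 1) 1 p K := by
  obtain ⟨P, U, hne, hS, hab⟩ := hs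
  apply FprRow.of_index
  intro H hH hi
  exact of_not_dvd_index hne hS hab hH.1 (hpar H hH hi)

/-- Own characteristic, small Sylow subgroups. -/
theorem row_of_small {p : ℕ} [hp : Fact p.Prime] {K : Type*} [Group K] [Finite K] [IsSimpleGroup K]
    (hs : Cfsg.Agent.Omega.ML.LieRow.CRB.HasSplitAb p K) (h3 : ¬ p ^ 3 ∣ Nat.card K) :
    FprRow (p + 1) 1 p K := by
  obtain ⟨P, U, hne, hS, hab⟩ := hs
  apply FprRow.of_index_small h3
  intro H hH hi
  exact of_not_dvd_index hne hS hab hH.1 hi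

end Cfsg.Agent.H409.Own
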