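import Cfsg.Agent.H409.FprBasic
import Cfsg.Agent.H401.CD

/-!
# Fixed point ratios of p-elements: reduction to simple groups
-/

set_option autoImplicit false
open Subgroup MulAction
open scoped Pointwise

namespace Cfsg.Agent.H409

universe u v

/-- `G` is generated by its `p`-elements. -/
def PG (p : ℕ) (G : Type*) [Group G] : Prop :=
  Subgroup.closure {g : G | ∃ k : ℕ, orderOf g = p ^ k} = ⊤

section

variable {p : ℕ} {G : Type*} [Group G]

/-- Lifting a `p`-element. -/
theorem exists_lift [Finite G] (hp : p.Prime) {G' : Type*} [Group G'] {f : G →* G'}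
    (hf : Function.Surjective f) {x : G'} (hx : ∃ k : ℕ, orderOf x = p ^ k) :
    ∃ y : G, f y = x ∧ ∃ k : ℕ, orderOf y = p ^ k := by
  obtain ⟨k, hk⟩ := hx
  obtain ⟨y, rfl⟩ := hf x
  have hn : orderOf y ≠ 0 := (orderOf_pos y).ne'
  obtain ⟨e, m, hm, hem⟩ := Nat.exists_eq_pow_mul_and_not_dvd hn p hp.ne_one
  have hcop : (p ^ e).Coprime m := ((Nat.Prime.coprime_iff_not_dvd hp).2 hm).pow_left e
  obtain ⟨c, hc1, hc2⟩ := Nat.chineseRemainder hcop 1 0
  refine ⟨y ^ c, ?_, ?_⟩
  · have h1 : p ^ k ∣ p ^ e := by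
      have h2 : p ^ k ∣ p ^ e * m := by
        rw [← hem, ← hk]
        exact orderOf_map_dvd f y
      exact (((Nat.Prime.coprime_iff_not_dvd hp).2 hm).pow_left k).dvd_of_dvd_mul_right h2
    rw [map_pow]
    have h3 : c ≡ 1 [MOD orderOf (f y)] := by
      rw [hk]
      exact hc1.of_dvd h1
    have h4 := pow_eq_pow_iff_modEq.2 h3
    rw [h4, pow_one]
  · have h1 : (y ^ c) ^ (p ^ e) = 1 := by
      rw [← pow_mul, ← orderOf_dvd_iff_pow_eq_one, hem, mul_comm c]
      exact Nat.mul_dvd_mul_left _ ((Nat.modEq_zero_iff_dvd).1 hc2)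
    obtain ⟨j, -, hj⟩ := (Nat.dvd_prime_pow hp).1 (orderOf_dvd_of_pow_eq_one h1)
    exact ⟨j, hj⟩

theorem PG.of_surjective (h : PG p G) (hp : p.Prime) {G' : Type*} [Group G'] {f : G →* G'}
    (hf : Function.Surjective f) : PG p G' := by
  unfold PG at h ⊢
  rw [eq_top_iff, ← MonoidHom.range_eq_top.2 hf, MonoidHom.range_eq_map, ← h,
    MonoidHom.map_closure, closure_le]
  rintro _ ⟨g, ⟨k, hk⟩, rfl⟩
  apply Subgroup.subset_closure
  have h1 : orderOf (f g) ∣ p ^ k := by
    rw [← hk]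
    exact orderOf_map_dvd f g
  obtain ⟨j, -, hj⟩ := (Nat.dvd_prime_pow hp).1 h1
  exact ⟨j, hj⟩

theorem PG.exists_notMem (h : PG p G) {H : Subgroup G} (hH : H ≠ ⊤) :
    ∃ x : G, (∃ k : ℕ, orderOf x = p ^ k) ∧ x ∉ H := by
  by_contra hcon
  push Not at hcon
  apply hH
  rw [eq_top_iff, ← (show Subgroup.closure _ = ⊤ from h), closure_le]
  intro g hg
  exact hcon g hg

/-- The subgroup generated by the `p`-elements of `N`. -/
def opp (p : ℕ) (N : Subgroup G) : Subgroup G :=
  Subgroup.closure {g : G | g ∈ N ∧ ∃ k : ℕ, orderOf g = p ^ k}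

theorem opp_le (N : Subgroup G) : opp p N ≤ N := by
  unfold opp
  rw [closure_le]
  exact fun g hg => hg.1

theorem opp_normal {N : Subgroup G} (hN : N.Normal) : (opp p N).Normal := by
  constructor
  intro n hn g
  have h : opp p N ≤ (opp p N).comap (MulAut.conj g).toMonoidHom := by
    conv_lhs => unfold opp
    rw [closure_le]
    rintro y ⟨hy, k, hk⟩
    change MulAut.conj g y ∈ opp p N
    apply Subgroup.subset_closure
    refine ⟨hN.conj_mem y hy g, k, ?_⟩
    rw [← hk]
    exact orderOf_injective (MulAut.conj g).toMonoidHom (MulAut.conj g).injective y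
  exact h hn

theorem opp_ne_bot [Finite G] (hp : p.Prime) {N : Subgroup G} (h : p ∣ Nat.card N) :
    opp p N ≠ ⊥ := by
  have : Fact p.Prime := ⟨hp⟩
  obtain ⟨x, hx⟩ := exists_prime_orderOf_dvd_card' p h
  intro h1
  have h2 : (x : G) ∈ opp p N := by
    apply Subgroup.subset_closure
    exact ⟨x.2, 1, by rw [Subgroup.orderOf_coe, hx, pow_one]⟩
  rw [h1, mem_bot] at h2
  have h3 : x = 1 := Subtype.ext h2
  rw [h3, orderOf_one] at hx
  exact hp.ne_one hx.symm

theorem PG_of_opp {N : Subgroup G} (h : opp p N = N) : PG p N := by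
  unfold PG
  rw [eq_top_iff]
  have h1 : (Subgroup.closure {g : N | ∃ k : ℕ, orderOf g = p ^ k}).map N.subtype = N := by
    rw [MonoidHom.map_closure]
    conv_rhs => rw [← h]
    unfold opp
    congr 1
    ext g
    constructor
    · rintro ⟨y, ⟨k, hk⟩, rfl⟩
      exact ⟨y.2, k, by rw [← hk]; exact Subgroup.orderOf_coe y⟩
    · rintro ⟨hg, k, hk⟩
      refine ⟨⟨g, hg⟩, ⟨k, ?_⟩, rfl⟩
      rw [← hk, ← Subgroup.orderOf_coe]
  intro y _
  have h2 : (y : G) ∈ (Subgroup.closure {g : N | ∃ k : ℕ, orderOf g = p ^ k}).map N.subtype := by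
    rw [h1]
    exact y.2
  obtain ⟨z, hz, hzy⟩ := h2
  rwa [← Subtype.ext (show (z : G) = y from hzy)]

end

/-- **Lemma D.** A `p`-element moving a point of a set on which a normal `p'`-subgroup is
transitive has fixed point ratio at most `1/(p+1)`. -/
theorem coprime_fix {G Ω : Type*} [Group G] [Finite G] [MulAction G Ω] [Finite Ω] {p : ℕ}
    [Fact p.Prime] {N : Subgroup G} (hN : ¬ p ∣ Nat.card N) {x : G}
    (hx : ∃ k : ℕ, orderOf x = p ^ k) (hnorm : x ∈ normalizer (N : Set G))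
    (htr : ∀ y z : Ω, ∃ k ∈ N, k • y = z) (hmove : ∃ ω : Ω, x • ω ≠ ω) :
    (p + 1) * Nat.card (fixedBy Ω x) ≤ Nat.card Ω := by
  classical
  have hp : p.Prime := Fact.out
  have hD : IsPGroup p (zpowers x) := by
    obtain ⟨k, hk⟩ := hx
    exact IsPGroup.of_card (n := k) (by rw [Nat.card_zpowers, hk])
  have hfs : H401.fs (zpowers x) Ω = fixedBy Ω x := by
    ext ω
    rw [H401.mem_fs, zpowers_le, mem_stabilizer_iff, mem_fixedBy]
  by_cases hne : (H401.fs (zpowers x) Ω).Nonempty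
  swap
  · rw [Set.not_nonempty_iff_eq_empty] at hne
    rw [← hfs, Nat.card_coe_set_eq, hne, Set.ncard_empty, mul_zero]
    exact Nat.zero_le _
  have hdvd := H401.ncard_fs_dvd hD hN (by rw [zpowers_le]; exact hnorm) htr hne
  have hmod := H401.ncard_modEq hD (X := Ω) (S := Set.univ) (fun _ _ _ _ => trivial)
  rw [Set.ncard_univ] at hmod
  obtain ⟨ω0, hω0⟩ := hmove
  have : Nonempty Ω := ⟨ω0⟩
  -- the number of points is prime to `p`
  have hn : ¬ p ∣ Nat.card Ω := by
    intro h
    apply hN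
    refine h.trans ?_
    have h1 : orbit N ω0 = Set.univ := by
      rw [Set.eq_univ_iff_forall]
      intro y
      obtain ⟨k, hk, hky⟩ := htr ω0 y
      exact ⟨⟨k, hk⟩, hky⟩
    have h2 : Nat.card Ω = (stabilizer N ω0).index := by
      rw [← Set.ncard_univ, ← h1, ← Nat.card_coe_set_eq,
        Nat.card_congr (orbitEquivQuotientStabilizer N ω0)]
      rfl
    rw [h2]
    exact Subgroup.index_dvd_card _
  have hlt : (H401.fs (zpowers x) Ω).ncard < Nat.card Ω := by
    rw [← Set.ncard_univ]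
    apply Set.ncard_lt_ncard _ (Set.toFinite _)
    rw [Set.ssubset_univ_iff]
    intro h
    have : ω0 ∈ H401.fs (zpowers x) Ω := by rw [h]; trivial
    rw [hfs] at this
    exact hω0 this
  rw [← hfs, Nat.card_coe_set_eq]
  obtain ⟨c, hc⟩ := hdvd
  set f := (H401.fs (zpowers x) Ω).ncard with hf
  have hf0 : 0 < f := by
    rw [hf, Set.ncard_pos]
    exact hne
  rw [hc] at hn hlt ⊢
  have hpf : ¬ p ∣ f := fun h => hn (h.mul_right c)
  -- `c = 1` modulo `p`
  have hmod' : f * c ≡ f * 1 [MOD p] := by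
    rw [mul_one]
    rw [Set.inter_univ, hc] at hmod
    exact hmod
  have hc1 : c ≡ 1 [MOD p] :=
    Nat.ModEq.cancel_left_of_coprime ((Nat.Prime.coprime_iff_not_dvd hp).2 hpf) hmod'
  have hc2 : c ≠ 0 := by
    rintro rfl
    simp at hlt
  have hc3 : c ≠ 1 := by
    rintro rfl
    simp at hlt
  have hc4 : p ∣ c - 1 := (Nat.modEq_iff_dvd' (by omega)).1 hc1.symm
  have hc5 := Nat.le_of_dvd (by omega) hc4
  calc (p + 1) * f = f * (p + 1) := mul_comm _ _
    _ ≤ f * c := Nat.mul_le_mul_left _ (by omega)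

/-- A nontrivial finite group has a minimal normal subgroup. -/
theorem exists_min_normal (G : Type*) [Group G] [Finite G] [Nontrivial G] :
    ∃ N : Subgroup G, N.Normal ∧ N ≠ ⊥ ∧ ∀ M : Subgroup G, M.Normal → M ≤ N → M = ⊥ ∨ M = N := by
  classical
  have hex : ∃ n : ℕ, ∃ N : Subgroup G, N.Normal ∧ N ≠ ⊥ ∧ Nat.card N = n :=
    ⟨_, ⊤, inferInstance, top_ne_bot, rfl⟩
  obtain ⟨N, hN, hN1, hNc⟩ := Nat.find_spec hex
  refine ⟨N, hN, hN1, ?_⟩
  intro M hM hMN
  by_cases h : M = ⊥
  · exact Or.inl h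
  · right
    have h1 := Nat.find_min' hex ⟨M, hM, h, rfl⟩
    rw [← hNc] at h1
    exact Subgroup.eq_of_le_of_card_ge hMN h1

/-- **Theorem A.** Reduction of the fixed point ratio bound to simple groups. -/
theorem row_of_simple {p a b : ℕ} [Fact p.Prime] (hab : a ≤ b * (p + 1))
    (hrow : ∀ (S : Type u) [Group S] [Finite S], IsSimpleGroup S → (∃ x y : S, x * y ≠ y * x) →
      p ∣ Nat.card S → FprRow a b p S) (n : ℕ) :
    ∀ (G : Type u) [Group G] [Finite G], Nat.card G = n → PG p G → FprRow a b p G := by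
  classical
  have hp : p.Prime := Fact.out
  induction n using Nat.strong_induction_on with
  | _ n ih =>
  intro G _ _ hGn hG H hH
  have hnt : Nontrivial G := by
    by_contra h
    rw [not_nontrivial_iff_subsingleton] at h
    exact hH (Subsingleton.elim _ _)
  obtain ⟨N, hN, hN1, hmin⟩ := exists_min_normal G
  by_cases hNH : N ⊔ H = ⊤
  swap
  · -- pass to `G/N`
    have hf : Function.Surjective (QuotientGroup.mk' N) := QuotientGroup.mk'_surjective N
    have hcard : Nat.card (G ⧸ N) < n := by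
      rw [← hGn, ← N.index_mul_card]
      change N.index < N.index * Nat.card N
      have h1 : 1 < Nat.card N := by
        rw [Subgroup.one_lt_card_iff_ne_bot]
        exact hN1
      have h2 : 0 < N.index := Nat.pos_of_ne_zero index_ne_zero_of_finite
      nlinarith
    have hK : (N ⊔ H).map (QuotientGroup.mk' N) ≠ ⊤ := by
      intro h
      apply hNH
      have h1 := congrArg (fun L : Subgroup (G ⧸ N) => L.comap (QuotientGroup.mk' N)) h
      simp only [comap_top] at h1
      rw [comap_map_eq, QuotientGroup.ker_mk', sup_right_comm, sup_idem] at h1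
      exact h1
    obtain ⟨x, hx, hle⟩ := ih _ hcard (G ⧸ N) rfl (hG.of_surjective hp hf) _ hK
    obtain ⟨y, rfl, hy⟩ := exists_lift hp hf hx
    refine ⟨y, hy, ?_⟩
    set K := (N ⊔ H).map (QuotientGroup.mk' N) with hKdef
    let φ : (G ⧸ H) → ((G ⧸ N) ⧸ K) := Quotient.map' (QuotientGroup.mk' N) (fun g g' hg => by
      rw [QuotientGroup.leftRel_apply] at hg ⊢
      rw [← map_inv, ← map_mul]
      exact mem_map_of_mem _ ((le_sup_right : H ≤ N ⊔ H) hg))
    refine fix_le_of_map (Ω := G ⧸ H) (QuotientGroup.mk' N) hf φ ?_ y hle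
    intro g w
    obtain ⟨w, rfl⟩ := QuotientGroup.mk_surjective w
    change ((((g * w : G) : G ⧸ N)) : (G ⧸ N) ⧸ K) = (((g : G ⧸ N) * (w : G ⧸ N) : G ⧸ N) :
      (G ⧸ N) ⧸ K)
    rfl
  -- `N` is transitive
  have htr : ∀ y z : G ⧸ H, ∃ k ∈ N, k • y = z := by
    intro y z
    obtain ⟨y, rfl⟩ := QuotientGroup.mk_surjective y
    obtain ⟨z, rfl⟩ := QuotientGroup.mk_surjective z
    have hdec : ∀ g : G, ∃ k ∈ N, ∃ h ∈ H, k * h = g := by
      intro g
      have h1 : g ∈ ((N ⊔ H : Subgroup G) : Set G) := by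
        rw [hNH]; trivial
      rw [Subgroup.normal_mul] at h1
      obtain ⟨k, hk, h, hh, hkh⟩ := h1
      exact ⟨k, hk, h, hh, hkh⟩
    obtain ⟨k, hk, h, hh, rfl⟩ := hdec y
    obtain ⟨k', hk', h', hh', rfl⟩ := hdec z
    refine ⟨k' * k⁻¹, N.mul_mem hk' (N.inv_mem hk), ?_⟩
    change ((k' * k⁻¹ * (k * h) : G) : G ⧸ H) = ((k' * h' : G) : G ⧸ H)
    rw [QuotientGroup.eq]
    have h1 : (k' * k⁻¹ * (k * h))⁻¹ * (k' * h') = h⁻¹ * h' := by group
    rw [h1]
    exact H.mul_mem (H.inv_mem hh) hh'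
  have : Nontrivial (G ⧸ H) := by
    rw [← Finite.one_lt_card_iff_nontrivial]
    change 1 < H.index
    exact Subgroup.one_lt_index_of_ne_top hH
  by_cases hpN : p ∣ Nat.card N
  swap
  · -- `N` is a `p'`-group
    obtain ⟨x, hx, hxH⟩ := hG.exists_notMem hH
    refine ⟨x, hx, ?_⟩
    have h1 : (p + 1) * Nat.card (fixedBy (G ⧸ H) x) ≤ Nat.card (G ⧸ H) := by
      refine coprime_fix hpN hx ?_ htr ⟨((1 : G) : G ⧸ H), ?_⟩
      · rw [Subgroup.normalizer_eq_top_iff.2 hN]
        trivial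
      · intro h
        have h2 : ((x * 1 : G) : G ⧸ H) = ((1 : G) : G ⧸ H) := h
        rw [mul_one, eq_comm, QuotientGroup.eq, inv_one, one_mul] at h2
        exact hxH h2
    calc a * Nat.card (fixedBy (G ⧸ H) x) ≤ b * (p + 1) * Nat.card (fixedBy (G ⧸ H) x) :=
          Nat.mul_le_mul_right _ hab
      _ = b * ((p + 1) * Nat.card (fixedBy (G ⧸ H) x)) := by ring
      _ ≤ b * Nat.card (G ⧸ H) := Nat.mul_le_mul_left _ h1
  -- `N` is generated by its `p`-elements
  have hopp : opp p N = N := by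
    rcases hmin _ (opp_normal hN) (opp_le N) with h | h
    · exact absurd h (opp_ne_bot hp hpN)
    · exact h
  have hNPG : PG p N := PG_of_opp hopp
  by_cases hNtop : N = ⊤
  swap
  · have hlt : Nat.card N < n := by
      rw [← hGn]
      exact lt_of_le_of_ne (Subgroup.card_le_card_group N)
        (fun h => hNtop (Subgroup.eq_top_of_card_eq N h))
    have hrowN := ih _ hlt N rfl hNPG
    have : IsPretransitive N (G ⧸ H) := by
      constructor
      intro y z
      obtain ⟨k, hk, hkz⟩ := htr y z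
      exact ⟨⟨k, hk⟩, hkz⟩
    obtain ⟨x, ⟨k, hk⟩, hle⟩ := hrowN.action (Ω := G ⧸ H)
    refine ⟨x, ⟨k, ?_⟩, hle⟩
    rw [← hk]
    exact Subgroup.orderOf_coe x
  -- `G` is simple
  have hsimple : IsSimpleGroup G := by
    refine { exists_pair_ne := hnt.exists_pair_ne, eq_bot_or_eq_top_of_normal := ?_ }
    intro M hM
    rcases hmin M hM (hNtop ▸ le_top) with h | h
    · exact Or.inl h
    · exact Or.inr (h.trans hNtop)
  have hpG : p ∣ Nat.card G := by
    rw [hNtop, Subgroup.card_top] at hpN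
    exact hpN
  by_cases hcomm : ∃ x y : G, x * y ≠ y * x
  · exact hrow G hsimple hcomm hpG H hH
  · push Not at hcomm
    obtain ⟨x, hx, hxH⟩ := hG.exists_notMem hH
    refine ⟨x, hx, ?_⟩
    have h1 : fixedBy (G ⧸ H) x = ∅ := by
      rw [Set.eq_empty_iff_forall_notMem]
      intro w hw
      obtain ⟨w, rfl⟩ := QuotientGroup.mk_surjective w
      have h2 : ((x * w : G) : G ⧸ H) = (w : G ⧸ H) := hw
      rw [eq_comm, QuotientGroup.eq] at h2
      rw [hcomm x w, inv_mul_cancel_left] at h2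
      exact hxH h2
    rw [h1]
    simp

/-- The bound for faithful transitive groups generated by their `p`-elements, from the bound for
simple groups. -/
theorem fpr_of_rows {p a b : ℕ} [Fact p.Prime] (hab : a ≤ b * (p + 1))
    (hrow : ∀ (S : Type u) [Group S] [Finite S], IsSimpleGroup S → (∃ x y : S, x * y ≠ y * x) →
      p ∣ Nat.card S → FprRow a b p S)
    {G : Type u} {Ω : Type v} [Group G] [Finite G] [MulAction G Ω] [FaithfulSMul G Ω] [Finite Ω]
    (htrans : MulAction.IsPretransitive G Ω) (hpG : p ∣ Nat.card G)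
    (hgen : Subgroup.closure {g : G | ∃ k : ℕ, orderOf g = p ^ k} = ⊤) :
    ∃ x : G, (∃ k : ℕ, orderOf x = p ^ k) ∧
      a * Nat.card (MulAction.fixedBy Ω x) ≤ b * Nat.card Ω := by
  have hp : p.Prime := Fact.out
  have h := row_of_simple hab hrow _ G rfl hgen
  have : Nontrivial Ω := by
    by_contra hcon
    rw [not_nontrivial_iff_subsingleton] at hcon
    have hG1 : Subsingleton G := by
      constructor
      intro g g'
      apply FaithfulSMul.eq_of_smul_eq_smul (α := Ω)
      intro ω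
      exact Subsingleton.elim _ _
    have h1 : Nat.card G = 1 := Nat.card_of_subsingleton 1
    rw [h1, Nat.dvd_one] at hpG
    exact hp.ne_one hpG
  exact h.action

end Cfsg.Agent.H409
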