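import Cfsg.Agent.H409.FprAvg
import Cfsg.Agent.H394.SqTI

/-!
# Fixed point ratios of p-elements in simple groups with TI Sylow subgroups
-/

set_option autoImplicit false
open Subgroup MulAction
open scoped Pointwise

namespace Cfsg.Agent.H409.TI

/-- Counting the fixed points of the elements of a conjugation invariant set. -/
theorem sum_fix {S : Type*} [Group S] [Finite S] (H : Subgroup S) (X : Finset S)
    (hX : ∀ g : S, ∀ x ∈ X, g * x * g⁻¹ ∈ X) :
    ∑ x ∈ X, Nat.card (fixedBy (S ⧸ H) x) = Nat.card (S ⧸ H) * {x : S | x ∈ X ∧ x ∈ H}.ncard := by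
  classical
  have : Fintype S := Fintype.ofFinite S
  have : Fintype (S ⧸ H) := Fintype.ofFinite _
  have h1 : ∀ x : S, Nat.card (fixedBy (S ⧸ H) x) =
      ∑ ω : S ⧸ H, if x • ω = ω then 1 else 0 := by
    intro x
    rw [Finset.sum_boole, Nat.cast_id, Nat.card_eq_fintype_card, Fintype.card_subtype]
    rfl
  simp_rw [h1]
  rw [Finset.sum_comm]
  have h2 : ∀ ω : S ⧸ H, ∑ x ∈ X, (if x • ω = ω then 1 else 0) = {x : S | x ∈ X ∧ x ∈ H}.ncard := by
    intro ω
    obtain ⟨g, rfl⟩ := QuotientGroup.mk_surjective ω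
    rw [Finset.sum_boole, Nat.cast_id]
    rw [← Set.ncard_coe_finset]
    symm
    refine Set.ncard_congr (fun x _ => g * x * g⁻¹) ?_ ?_ ?_
    · rintro x ⟨hx, hxH⟩
      simp only [Finset.coe_filter, Set.mem_ofPred_eq]
      refine ⟨hX g x hx, ?_⟩
      change ((g * x * g⁻¹ * g : S) : S ⧸ H) = (g : S ⧸ H)
      rw [inv_mul_cancel_right, eq_comm, QuotientGroup.eq, inv_mul_cancel_left]
      exact hxH
    · rintro x y - - hxy
      exact (MulAut.conj g).injective hxy
    · intro y hy
      simp only [Finset.coe_filter, Set.mem_ofPred_eq] at hy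
      refine ⟨g⁻¹ * y * g, ⟨?_, ?_⟩, by group⟩
      · have := hX g⁻¹ y hy.1
        rwa [inv_inv] at this
      · have h3 : ((y * g : S) : S ⧸ H) = (g : S ⧸ H) := hy.2
        rw [eq_comm, QuotientGroup.eq] at h3
        rwa [mul_assoc]
  simp_rw [h2]
  rw [Finset.sum_const, Finset.card_univ, smul_eq_mul, Nat.card_eq_fintype_card]

section

variable {S : Type*} [Group S] [Finite S] {p : ℕ} [hp : Fact p.Prime]

/-- the nontrivial `p`-elements -/
def PE (p : ℕ) (S : Type*) [Group S] : Set S := {x | x ≠ 1 ∧ ∃ P : Sylow p S, x ∈ P}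

omit hp in
/-- the nontrivial `p`-elements of `H` -/
theorem card_PE (hTI : ∀ P Q : Sylow p S, P ≠ Q → (P : Subgroup S) ⊓ Q = ⊥) (H : Subgroup S) :
    {x : S | x ∈ PE p S ∧ x ∈ H}.ncard =
      ∑ᶠ P : Sylow p S, (Nat.card (H ⊓ (P : Subgroup S) : Subgroup S) - 1) := by
  classical
  have : Fintype S := Fintype.ofFinite S
  have : Fintype (Sylow p S) := Fintype.ofFinite _
  rw [finsum_eq_sum_of_fintype]
  have h1 : {x : S | x ∈ PE p S ∧ x ∈ H} =
      ((Finset.univ : Finset (Sylow p S)).biUnion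
        (fun P => Finset.univ.filter (fun x : S => x ≠ 1 ∧ x ∈ H ∧ x ∈ (P : Subgroup S))) : Finset S) := by
    ext x
    simp only [PE, Set.mem_ofPred_eq, Finset.coe_biUnion, Finset.coe_univ, Set.mem_univ,
      Finset.coe_filter, Finset.mem_univ, true_and, Set.iUnion_true, Set.mem_iUnion]
    constructor
    · rintro ⟨⟨hx1, P, hxP⟩, hxH⟩
      exact ⟨P, hx1, hxH, hxP⟩
    · rintro ⟨P, hx1, hxH, hxP⟩
      exact ⟨⟨hx1, P, hxP⟩, hxH⟩
  rw [h1, Set.ncard_coe_finset, Finset.card_biUnion]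
  · apply Finset.sum_congr rfl
    intro P _
    have h2 : Finset.univ.filter (fun x : S => x ≠ 1 ∧ x ∈ H ∧ x ∈ (P : Subgroup S)) =
        (Finset.univ.filter (fun x : S => x ∈ H ⊓ (P : Subgroup S))).erase 1 := by
      ext x
      simp [mem_inf]
    rw [h2, Finset.card_erase_of_mem (by simp [one_mem])]
    congr 1
    rw [Nat.card_eq_fintype_card, Fintype.card_subtype]
  · intro P _ Q _ hPQ
    change Disjoint (Finset.univ.filter (fun x : S => x ≠ 1 ∧ x ∈ H ∧ x ∈ (P : Subgroup S)))
      (Finset.univ.filter (fun x : S => x ≠ 1 ∧ x ∈ H ∧ x ∈ (Q : Subgroup S)))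
    rw [Finset.disjoint_left]
    intro x hx hx'
    simp only [Finset.mem_filter, Finset.mem_univ, true_and] at hx hx'
    have h3 : x ∈ (P : Subgroup S) ⊓ Q := ⟨hx.2.2, hx'.2.2⟩
    rw [hTI P Q hPQ, mem_bot] at h3
    exact hx.1 h3

omit [Finite S] hp in
theorem PE_conj (g x : S) (hx : x ∈ PE p S) : g * x * g⁻¹ ∈ PE p S := by
  obtain ⟨hx1, P, hxP⟩ := hx
  refine ⟨?_, g • P, ?_⟩
  · intro h
    apply hx1
    have h2 : x = g⁻¹ * (g * x * g⁻¹) * g := by group
    rw [h2, h]
    group
  · rw [Sylow.smul_def]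
    exact ⟨x, hxP, rfl⟩

/-- Averaging over all nontrivial `p`-elements. -/
theorem exists_avg (hTI : ∀ P Q : Sylow p S, P ≠ Q → (P : Subgroup S) ⊓ Q = ⊥) (H : Subgroup S)
    {Q : ℕ} (hQ1 : 1 < Q) (hQ : ∀ P : Sylow p S, Nat.card P = Q)
    (hcount : Nat.card (Sylow p S) = 1 + Q)
    (hle : (p + 1) * ∑ᶠ P : Sylow p S, (Nat.card (H ⊓ (P : Subgroup S) : Subgroup S) - 1) ≤
      (1 + Q) * (Q - 1)) :
    ∃ x : S, (∃ k : ℕ, orderOf x = p ^ k) ∧
      (p + 1) * Nat.card (fixedBy (S ⧸ H) x) ≤ 1 * Nat.card (S ⧸ H) := by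
  classical
  have : Fintype S := Fintype.ofFinite S
  have : Fintype (Sylow p S) := Fintype.ofFinite _
  have htot : (PE p S).ncard = (1 + Q) * (Q - 1) := by
    have h1 := card_PE hTI (⊤ : Subgroup S)
    have h2 : {x : S | x ∈ PE p S ∧ x ∈ (⊤ : Subgroup S)} = PE p S := by
      ext x; simp
    rw [h2] at h1
    rw [h1, finsum_eq_sum_of_fintype]
    have h3 : ∀ P : Sylow p S, Nat.card (⊤ ⊓ (P : Subgroup S) : Subgroup S) - 1 = Q - 1 := by
      intro P
      rw [top_inf_eq]
      congr 1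
      exact hQ P
    simp_rw [h3]
    rw [Finset.sum_const, Finset.card_univ, smul_eq_mul, ← Nat.card_eq_fintype_card, hcount]
  by_contra hcon
  push Not at hcon
  let X : Finset S := Finset.univ.filter (fun x => x ∈ PE p S)
  have hXc : X.card = (1 + Q) * (Q - 1) := by
    rw [← htot, ← Set.ncard_coe_finset]
    congr 1
    ext x
    simp [X]
  have h1 := sum_fix H X (by
    intro g x hx
    simp only [X, Finset.mem_filter, Finset.mem_univ, true_and] at hx ⊢
    exact PE_conj g x hx)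
  have h2 : {x : S | x ∈ X ∧ x ∈ H} = {x : S | x ∈ PE p S ∧ x ∈ H} := by
    ext x
    simp [X]
  rw [h2, card_PE hTI H] at h1
  have h3 : ∀ x ∈ X, Nat.card (S ⧸ H) + 1 ≤ (p + 1) * Nat.card (fixedBy (S ⧸ H) x) := by
    intro x hx
    simp only [X, Finset.mem_filter, Finset.mem_univ, true_and] at hx
    obtain ⟨hx1, P, hxP⟩ := hx
    obtain ⟨k, hk⟩ := (IsPGroup.iff_orderOf).1 P.isPGroup' ⟨x, hxP⟩
    have hk' : orderOf x = p ^ k := by
      rw [← hk]
      exact Subgroup.orderOf_coe (⟨x, hxP⟩ : P)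
    have := hcon x ⟨k, hk'⟩
    omega
  have h4 := Finset.card_nsmul_le_sum X _ _ h3
  rw [← Finset.mul_sum, h1, smul_eq_mul, hXc] at h4
  have h5 : 0 < (1 + Q) * (Q - 1) := Nat.mul_pos (by omega) (by omega)
  have h6 := Nat.mul_le_mul_left (Nat.card (S ⧸ H)) hle
  nlinarith

/-- **Rank one.** -/
theorem ti_row [IsSimpleGroup S] (hTI : ∀ P Q : Sylow p S, P ≠ Q → (P : Subgroup S) ⊓ Q = ⊥)
    {Q : ℕ} (hQ1 : 1 < Q) (hQ : ∀ P : Sylow p S, Nat.card P = Q)
    (hcount : Nat.card (Sylow p S) = 1 + Q)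
    (hex : ∀ H : Subgroup S, H ≠ ⊤ →
      ¬ ∀ P : Sylow p S, p * Nat.card (H ⊓ (P : Subgroup S) : Subgroup S) = Q) :
    FprRow (p + 1) 1 p S := by
  classical
  intro H hH
  have : Fintype (Sylow p S) := Fintype.ofFinite _
  apply exists_avg hTI H hQ1 hQ hcount
  -- a Sylow subgroup of `H`
  obtain ⟨R⟩ : Nonempty (Sylow p H) := inferInstance
  obtain ⟨P, hPR⟩ := R.exists_comap_subtype_eq
  have hPR' : (P : Subgroup S).subgroupOf H = R := hPR
  obtain ⟨h, hh⟩ : ∃ h, h = Nat.card (H ⊓ (P : Subgroup S) : Subgroup S) := ⟨_, rfl⟩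
  have hout : ∀ P' : Sylow p S, P' ∉ orbit H P → H ⊓ (P' : Subgroup S) = ⊥ := by
    intro P' hP'
    by_contra hne
    apply hP'
    have h1 : IsPGroup p ((P' : Subgroup S).subgroupOf H) := P'.isPGroup'.comap_subtype
    obtain ⟨R', hR'⟩ := h1.exists_le_sylow
    obtain ⟨k, hk⟩ := exists_smul_eq H R R'
    refine ⟨k, ?_⟩
    by_contra hne'
    have h2 : ((k • P : Sylow p S) : Subgroup S) ⊓ P' = ⊥ := hTI _ _ hne'
    apply hne
    rw [eq_bot_iff]
    intro x hx
    have h3 : (⟨x, hx.1⟩ : H) ∈ (R' : Subgroup H) := hR' (by rw [mem_subgroupOf]; exact hx.2)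
    rw [← hk, Sylow.smul_def] at h3
    obtain ⟨y, hy, hyx⟩ := h3
    have hy' : y ∈ (R : Subgroup H) := hy
    rw [← hPR', mem_subgroupOf] at hy'
    have h4 : x ∈ ((k • P : Sylow p S) : Subgroup S) := by
      rw [Subgroup.smul_def, Sylow.smul_def]
      refine ⟨y, hy', ?_⟩
      have := congrArg (fun z : H => (z : S)) hyx
      exact this
    have h5 : x ∈ ((k • P : Sylow p S) : Subgroup S) ⊓ P' := ⟨h4, hx.2⟩
    rwa [h2] at h5
  have hin : ∀ P' : Sylow p S, P' ∈ orbit H P →
      Nat.card (H ⊓ (P' : Subgroup S) : Subgroup S) = h := by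
    rintro _ ⟨k, rfl⟩
    rw [hh]
    refine (Nat.card_congr (Equiv.ofBijective (fun x : (H ⊓ (P : Subgroup S) : Subgroup S) =>
      (⟨k * x * k⁻¹, ⟨H.mul_mem (H.mul_mem k.2 x.2.1) (H.inv_mem k.2), ?_⟩⟩ :
        (H ⊓ ((k • P : Sylow p S) : Subgroup S) : Subgroup S))) ⟨?_, ?_⟩)).symm
    · rw [Subgroup.smul_def, Sylow.smul_def]
      exact ⟨x, x.2.2, rfl⟩
    · intro x y hxy
      have h1 : (k : S) * x * (k : S)⁻¹ = k * y * (k : S)⁻¹ := congrArg Subtype.val hxy
      exact Subtype.ext ((MulAut.conj (k : S)).injective h1)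
    · rintro ⟨y, hy1, hy2⟩
      have hy2' : y ∈ (((k : S) • P : Sylow p S) : Subgroup S) := hy2
      rw [Sylow.smul_def] at hy2'
      obtain ⟨x, hx, hxy⟩ := hy2'
      have hxy' : (k : S) * x * (k : S)⁻¹ = y := hxy
      refine ⟨⟨x, ?_, hx⟩, Subtype.ext hxy'⟩
      have h2 : x = (k : S)⁻¹ * y * k := by rw [← hxy']; group
      change x ∈ H
      rw [h2]
      exact H.mul_mem (H.mul_mem (H.inv_mem k.2) hy1) k.2
  set O := orbit H P with hO
  have hsum : ∑ᶠ P : Sylow p S, (Nat.card (H ⊓ (P : Subgroup S) : Subgroup S) - 1) =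
      Nat.card O * (h - 1) := by
    rw [finsum_eq_sum_of_fintype]
    have h1 : ∀ P' : Sylow p S, Nat.card (H ⊓ (P' : Subgroup S) : Subgroup S) - 1 =
        if P' ∈ O then h - 1 else 0 := by
      intro P'
      by_cases h2 : P' ∈ O
      · rw [if_pos h2, hin P' h2]
      · rw [if_neg h2, hout P' h2, Subgroup.card_bot]
    simp_rw [h1]
    rw [← Finset.sum_filter, Finset.sum_const, smul_eq_mul]
    congr 1
    rw [Nat.card_eq_fintype_card, Fintype.card_subtype]
  rw [hsum]
  have hdvd : h ∣ Nat.card O - 1 := by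
    rw [hh]
    exact H394.SqTI.card_orbit_sub hTI P H
  have hOle : Nat.card O ≤ 1 + Q := by
    rw [← hcount]
    exact Nat.card_le_card_of_injective _ Subtype.val_injective
  have hO1 : 1 ≤ Nat.card O := by
    have : Nonempty O := ⟨⟨P, mem_orbit_self _⟩⟩
    exact Nat.card_pos
  have hOuniv : Nat.card O = 1 + Q → ∀ P' : Sylow p S, P' ∈ O := by
    intro h1 P'
    have h2 : O = Set.univ := by
      apply Set.eq_of_subset_of_ncard_le (Set.subset_univ _) _ (Set.toFinite _)
      rw [Set.ncard_univ, hcount, ← h1, Nat.card_coe_set_eq]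
    rw [h2]; trivial
  -- `h` divides `Q`
  have hhQ : h ∣ Q := by
    rw [← hQ P, hh]
    exact Subgroup.card_dvd_of_le inf_le_right
  have hh0 : 0 < h := by rw [hh]; exact Nat.card_pos
  obtain ⟨n, hn⟩ := (IsPGroup.iff_card).1 P.isPGroup'
  rw [hQ P] at hn
  have hp2 := hp.out.two_le
  obtain ⟨m, hm⟩ := hhQ
  obtain ⟨j, -, hj⟩ := (Nat.dvd_prime_pow hp.out).1 (show m ∣ p ^ n by rw [← hn, hm]; exact dvd_mul_left _ _)
  obtain ⟨k, hk⟩ := hdvd
  have hOk : Nat.card O = 1 + h * k := by omega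
  rw [hOk]
  rcases Nat.lt_or_ge 1 j with hj2 | hj2
  · -- `p² h ≤ Q`
    have h1 : p ^ 2 ≤ m := by
      rw [hj]
      exact Nat.pow_le_pow_right hp.out.pos hj2
    have h2 : h * p ^ 2 ≤ Q := by
      rw [hm]; exact Nat.mul_le_mul_left _ h1
    have h3 : 1 + h * k ≤ 1 + Q := by omega
    have h4 : (p + 1) * (h - 1) ≤ Q - 1 := by
      obtain ⟨h', rfl⟩ : ∃ h', h = h' + 1 := ⟨h - 1, by omega⟩
      rw [Nat.add_sub_cancel]
      have h5 : (p + 1) * h' + 1 ≤ (h' + 1) * p ^ 2 := by
        have : p + 1 ≤ p ^ 2 := by nlinarith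
        nlinarith
      omega
    calc (p + 1) * ((1 + h * k) * (h - 1)) = (1 + h * k) * ((p + 1) * (h - 1)) := by ring
      _ ≤ (1 + Q) * (Q - 1) := Nat.mul_le_mul h3 h4
  · rcases Nat.lt_or_ge j 1 with hj0 | hj1
    · -- `H` contains a Sylow subgroup
      have hj' : j = 0 := by omega
      subst hj'
      rw [pow_zero] at hj
      subst hj
      rw [mul_one] at hm
      have hk1 : k ≤ 1 := by
        by_contra hcon
        push Not at hcon
        have : h * 2 ≤ h * k := Nat.mul_le_mul_left _ hcon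
        omega
      have hk0 : k ≠ 1 := by
        rintro rfl
        rw [mul_one, ← hm] at hOk
        have hall := hOuniv hOk
        -- `H` contains all Sylow subgroups
        have hle : ∀ P' : Sylow p S, (P' : Subgroup S) ≤ H := by
          intro P'
          have h1 := hin P' (hall P')
          have h2 : H ⊓ (P' : Subgroup S) = P' := by
            apply Subgroup.eq_of_le_of_card_ge inf_le_right
            rw [h1, ← hm]
            exact (hQ P').le
          rw [← h2]
          exact inf_le_left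
        have hN : (Subgroup.closure (PE p S)).Normal := by
          constructor
          intro x hx g
          have h1 : Subgroup.closure (PE p S) ≤
              (Subgroup.closure (PE p S)).comap (MulAut.conj g).toMonoidHom := by
            rw [closure_le]
            intro y hy
            exact Subgroup.subset_closure (PE_conj g y hy)
          exact h1 hx
        rcases hN.eq_bot_or_eq_top with h1 | h1
        · have h2 : 1 < Nat.card P := by rw [hQ P]; exact hQ1
          rw [Finite.one_lt_card_iff_nontrivial] at h2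
          obtain ⟨x, hx⟩ := exists_ne (1 : P)
          have h3 : (x : S) ∈ Subgroup.closure (PE p S) :=
            Subgroup.subset_closure ⟨fun h => hx (Subtype.ext h), P, x.2⟩
          rw [h1, mem_bot] at h3
          exact hx (Subtype.ext h3)
        · apply hH
          rw [eq_top_iff, ← h1, closure_le]
          rintro x ⟨-, P', hx⟩
          exact hle P' hx
      have hk' : k = 0 := by omega
      subst hk'
      rw [mul_zero, add_zero, one_mul, ← hm]
      have h1 : p ≤ Q := by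
        have h2 : p ∣ Q := by
          have h3 : n ≠ 0 := by
            rintro rfl
            rw [pow_zero] at hn
            omega
          rw [hn]
          exact dvd_pow_self p h3
        exact Nat.le_of_dvd (by omega) h2
      exact Nat.mul_le_mul_right _ (by omega)
    · -- index `p`
      have hj' : j = 1 := by omega
      subst hj'
      rw [pow_one] at hj
      subst hj
      have hkm : k ≤ m := by
        by_contra hcon
        push Not at hcon
        have h1 : h * (m + 1) ≤ h * k := Nat.mul_le_mul_left _ hcon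
        have h2 : h * (m + 1) = Q + h := by rw [hm]; ring
        omega
      have hkm' : k ≠ m := by
        rintro rfl
        rw [← hm] at hOk
        have hall := hOuniv hOk
        apply hex H hH
        intro P'
        rw [hin P' (hall P'), hm, mul_comm]
      obtain ⟨h', rfl⟩ : ∃ h', h = h' + 1 := ⟨h - 1, by omega⟩
      obtain ⟨m', rfl⟩ : ∃ m', m = m' + 1 := ⟨m - 1, by omega⟩
      have hk2 : k ≤ m' := by omega
      rw [Nat.add_sub_cancel, hm]
      have e1 : (h' + 1) * (m' + 1) - 1 = h' * m' + h' + m' := by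
        have : (h' + 1) * (m' + 1) = h' * m' + h' + m' + 1 := by ring
        omega
      rw [e1]
      have h3 : (1 + (h' + 1) * k) * h' ≤ (1 + (h' + 1) * m') * h' :=
        Nat.mul_le_mul_right _ (Nat.add_le_add_left (Nat.mul_le_mul_left _ hk2) _)
      calc (m' + 1 + 1) * ((1 + (h' + 1) * k) * h') ≤ (m' + 1 + 1) * ((1 + (h' + 1) * m') * h') :=
            Nat.mul_le_mul_left _ h3
        _ ≤ (1 + (h' + 1) * (m' + 1)) * (h' * m' + h' + m') := by
            have hm'1 : 1 ≤ m' := by omega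
            nlinarith [Nat.zero_le (h' * m'), Nat.zero_le (h' * h' * m'), Nat.zero_le (m' * m')]

end

end Cfsg.Agent.H409.TI
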